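import Mathlib
import Cfsg.Agent.Suz2.TypeA
import Cfsg.Agent.Suz2.Dedekind

/-! Automorphisms of the 2-group of pairs `(x, y)` with `(x, y) (x', y') = (x + x', y + y' + φ(x) x')`,
`φ² = ` Frobenius. -/

set_option autoImplicit false

namespace Cfsg.Agent.H38.AutSz

open Cfsg.Agent.Suz2

section lemmaL
variable {F : Type*} [Field F] [Finite F] [CharP F 2] [Fintype (F ≃+* F)]

theorem coeff_zero (c : (F ≃+* F) → F) (h : ∀ x, ∑ σ, c σ * σ x = 0) : ∀ σ, c σ = 0 := by
  intro σ
  have h2 : ∑ σ : F ≃+* F, c σ • ((σ : F →+* F) : F → F) = 0 := by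
    ext y
    simp only [Finset.sum_apply, Pi.smul_apply, smul_eq_mul, Pi.zero_apply]
    exact h y
  exact Fintype.linearIndependent_iff.1 (aut_indep F) _ h2 σ

theorem pair_indep (N : (F ≃+* F) → (F ≃+* F) → F)
    (h : ∀ x y, ∑ α, ∑ β, N α β * (α x * β y) = 0) : ∀ α β, N α β = 0 := by
  intro α β
  have h1 : ∀ x, ∀ β, ∑ α, N α β * α x = 0 := by
    intro x
    apply coeff_zero
    intro y
    rw [← h x y, Finset.sum_comm]
    apply Finset.sum_congr rfl
    intro β _
    rw [Finset.sum_mul]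
    apply Finset.sum_congr rfl
    intro α _
    ring
  exact coeff_zero (fun α => N α β) (fun x => h1 x β) α

theorem quad_zero (M : (F ≃+* F) → (F ≃+* F) → F)
    (h : ∀ x, ∑ α, ∑ β, M α β * (α x * β x) = 0) :
    (∀ α β, M α β + M β α = 0) ∧ ∀ α, M α α = 0 := by
  classical
  have hs : ∀ α β, M α β + M β α = 0 := by
    apply pair_indep
    intro x y
    have h1 := h (x + y)
    have h2 : ∑ α, ∑ β, M α β * (α (x + y) * β (x + y)) =
        (∑ α, ∑ β, M α β * (α x * β x)) + (∑ α, ∑ β, M α β * (α y * β y)) +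
        ((∑ α, ∑ β, M α β * (α x * β y)) + ∑ α, ∑ β, M α β * (α y * β x)) := by
      simp only [← Finset.sum_add_distrib]
      apply Finset.sum_congr rfl
      intro α _
      apply Finset.sum_congr rfl
      intro β _
      simp only [map_add]
      ring
    rw [h2, h x, h y, zero_add, zero_add] at h1
    have h3 : ∑ α, ∑ β, M α β * (α y * β x) = ∑ α, ∑ β, M β α * (α x * β y) := by
      rw [Finset.sum_comm]
      apply Finset.sum_congr rfl
      intro α _
      apply Finset.sum_congr rfl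
      intro β _
      ring
    rw [h3] at h1
    rw [← h1, ← Finset.sum_add_distrib]
    apply Finset.sum_congr rfl
    intro α _
    rw [← Finset.sum_add_distrib]
    apply Finset.sum_congr rfl
    intro β _
    ring
  refine ⟨hs, ?_⟩
  -- square roots
  have hfr : ∀ z : F, ∃ r : F, r ^ 2 = z := by
    have hinj : Function.Injective (fun r : F => r ^ 2) := by
      intro a b hab
      have h0 : (a + b) ^ 2 = 0 := by
        rw [CharTwo.add_sq]
        have : a ^ 2 = b ^ 2 := hab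
        rw [this]
        exact CharTwo.add_self_eq_zero _
      have h4 := pow_eq_zero_iff (two_ne_zero) |>.1 h0
      have h5 : a + b + b = b := by rw [h4, zero_add]
      rw [add_assoc, CharTwo.add_self_eq_zero, add_zero] at h5
      exact h5
    exact (Finite.injective_iff_surjective.1 hinj)
  choose r hr using fun α => hfr (M α α)
  have hr0 : ∀ α, r α = 0 := by
    apply coeff_zero
    intro x
    have h1 := h x
    have h2 : ∑ α, ∑ β, M α β * (α x * β x) = ∑ p : (F ≃+* F) × (F ≃+* F), M p.1 p.2 * (p.1 x * p.2 x) := by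
      rw [Fintype.sum_prod_type]
    rw [h2, ← Finset.sum_filter_add_sum_filter_not Finset.univ (fun p : (F ≃+* F) × (F ≃+* F) => p.1 = p.2)] at h1
    have h3 : ∑ p ∈ Finset.univ.filter (fun p : (F ≃+* F) × (F ≃+* F) => ¬ p.1 = p.2),
        M p.1 p.2 * (p.1 x * p.2 x) = 0 := by
      apply Finset.sum_involution (fun p _ => (p.2, p.1))
      · rintro ⟨α, β⟩ _
        have := hs α β
        linear_combination (α x * β x) * this
      · rintro ⟨α, β⟩ hp _ heq
        rw [Finset.mem_filter] at hp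
        exact hp.2 (congrArg Prod.snd heq)
      · rintro ⟨α, β⟩ hp
        rw [Finset.mem_filter] at hp ⊢
        exact ⟨Finset.mem_univ _, fun hh => hp.2 hh.symm⟩
      · rintro ⟨α, β⟩ _
        rfl
    rw [h3, add_zero] at h1
    have h4 : ∑ p ∈ Finset.univ.filter (fun p : (F ≃+* F) × (F ≃+* F) => p.1 = p.2),
        M p.1 p.2 * (p.1 x * p.2 x) = ∑ α : F ≃+* F, M α α * (α x * α x) := by
      symm
      apply Finset.sum_bij (fun α _ => (α, α))
      · intro α _
        simp
      · intro a _ b _ hab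
        exact congrArg Prod.fst hab
      · rintro ⟨a, b⟩ hab
        rw [Finset.mem_filter] at hab
        exact ⟨a, Finset.mem_univ _, Prod.ext rfl hab.2⟩
      · intro a _
        rfl
    rw [h4] at h1
    have h5 : (∑ α : F ≃+* F, r α * α x) ^ 2 = ∑ α : F ≃+* F, M α α * (α x * α x) := by
      rw [CharTwo.sum_sq]
      apply Finset.sum_congr rfl
      intro α _
      rw [← hr α]
      ring
    rw [h1] at h5
    exact pow_eq_zero_iff (two_ne_zero) |>.1 h5
  intro α
  rw [← hr α, hr0 α]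
  ring

/-- Lemma L -/
theorem semilin (φ : F ≃+* F) (hφc : ∀ σ : F ≃+* F, φ * σ = σ * φ) (hφ2 : ∀ x, φ (φ x) = x ^ 2)
    (hbig : ∃ x : F, x ^ 4 ≠ x) (A B : F →+ F) (hA : ∀ x, A x = 0 → x = 0)
    (hAB : ∀ x, B (φ x * x) = φ (A x) * A x) : ∃ (c : F) (σ : F ≃+* F), c ≠ 0 ∧ ∀ x, A x = c * σ x := by
  classical
  obtain ⟨c, hc⟩ := add_expand A
  obtain ⟨b, hb⟩ := add_expand B
  have hQ := quad_zero (fun α β => φ (c (φ⁻¹ * α)) * c β - if α = β * φ then b β else 0) (by
    intro x
    have h1 : φ (A x) = ∑ α : F ≃+* F, φ (c (φ⁻¹ * α)) * α x := by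
      rw [hc x, map_sum]
      apply Fintype.sum_equiv (Equiv.mulLeft φ)
      intro σ
      show φ (c σ * σ x) = φ (c (φ⁻¹ * (φ * σ))) * (φ * σ) x
      rw [inv_mul_cancel_left, map_mul]
      rfl
    have h2 : B (φ x * x) = ∑ α : F ≃+* F, ∑ β : F ≃+* F, (if α = β * φ then b β else 0) * (α x * β x) := by
      rw [hb, Finset.sum_comm]
      apply Finset.sum_congr rfl
      intro β _
      rw [Finset.sum_eq_single (β * φ)]
      · rw [if_pos rfl, map_mul]; rfl
      · intro α _ hα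
        rw [if_neg hα, zero_mul]
      · intro h
        exact absurd (Finset.mem_univ _) h
    have h3 : φ (A x) * A x = ∑ α : F ≃+* F, ∑ β : F ≃+* F, (φ (c (φ⁻¹ * α)) * c β) * (α x * β x) := by
      rw [h1, hc x, Finset.sum_mul_sum]
      apply Finset.sum_congr rfl
      intro α _
      apply Finset.sum_congr rfl
      intro β _
      ring
    simp only [sub_mul, Finset.sum_sub_distrib]
    rw [← h3, ← h2, hAB]
    exact sub_self _)
  obtain ⟨hs, hd⟩ := hQ
  have hφ1 : φ ≠ 1 := by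
    intro h1
    obtain ⟨x, hx⟩ := hbig
    apply hx
    have h2 := hφ2 x
    rw [h1] at h2
    have h3 : x = x ^ 2 := h2
    calc x ^ 4 = (x ^ 2) ^ 2 := by ring
      _ = x := by rw [← h3, ← h3]
  -- diagonal
  have hdiag : ∀ α, c (φ⁻¹ * α) = 0 ∨ c α = 0 := by
    intro α
    have h1 := hd α
    have h2 : ¬ (α = α * φ) := by
      intro h
      apply hφ1
      exact (mul_eq_left.1 h.symm)
    simp only [if_neg h2, sub_zero] at h1
    rcases mul_eq_zero.1 h1 with h | h
    · left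
      exact (map_eq_zero φ).1 h
    · right; exact h
  have hone : ∀ σ τ : F ≃+* F, c σ ≠ 0 → c τ ≠ 0 → σ ≠ τ → ∀ x, τ x = (σ x) ^ 2 := by
    intro σ τ hσ hτ hne
    have h1 := hs (φ * σ) τ
    have h2 : c (φ⁻¹ * τ) = 0 := (hdiag τ).resolve_right hτ
    simp only [inv_mul_cancel_left] at h1
    have h3 : ¬ (φ * σ = τ * φ) := by
      rw [hφc]
      intro h
      exact hne (mul_right_cancel h)
    rw [if_neg h3, sub_zero, h2, map_zero, zero_mul, zero_sub] at h1
    by_cases h4 : τ = φ * σ * φ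
    · intro x
      rw [h4]
      have h5 : φ * σ * φ = φ * φ * σ := by rw [mul_assoc, ← hφc, mul_assoc]
      rw [h5]
      exact hφ2 (σ x)
    · exfalso
      rw [if_neg h4, neg_zero, add_zero] at h1
      rcases mul_eq_zero.1 h1 with h | h
      · exact hσ ((map_eq_zero φ).1 h)
      · exact hτ h
  have huniq : ∀ σ τ : F ≃+* F, c σ ≠ 0 → c τ ≠ 0 → σ = τ := by
    intro σ τ hσ hτ
    by_contra hne
    obtain ⟨x, hx⟩ := hbig
    obtain ⟨y, hy⟩ := σ.surjective x
    have h1 := hone σ τ hσ hτ hne y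
    have h2 := hone τ σ hτ hσ (Ne.symm hne) y
    apply hx
    rw [← hy]
    calc (σ y) ^ 4 = ((σ y) ^ 2) ^ 2 := by ring
      _ = σ y := by rw [← h1, ← h2]
  by_cases h0 : ∀ σ, c σ = 0
  · exfalso
    have h1 : A 1 = 0 := by
      rw [hc]
      apply Finset.sum_eq_zero
      intro σ _
      rw [h0, zero_mul]
    exact one_ne_zero (hA 1 h1)
  · push Not at h0
    obtain ⟨σ, hσ⟩ := h0
    refine ⟨c σ, σ, hσ, fun x => ?_⟩
    rw [hc, Finset.sum_eq_single σ]
    · intro τ _ hne
      have : c τ = 0 := by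
        by_contra h
        exact hne (huniq τ σ h hσ)
      rw [this, zero_mul]
    · intro h
      exact absurd (Finset.mem_univ _) h

end lemmaL

section aut
variable {F : Type*} [Field F] {φ : F →+* F}

/-- the automorphism attached to `g, c, σ` -/
def mk (hσ : ∀ σ : F ≃+* F, ∀ x, σ (φ x) = φ (σ x)) (g : F →+ F) (c : Fˣ) (σ : F ≃+* F) : MulAut (TA φ) where
  toFun u := ⟨c * σ u.x, φ c * c * σ u.y + g u.x⟩
  invFun u := ⟨σ.symm ((c : F)⁻¹ * u.x), σ.symm ((φ c * c)⁻¹ * (u.y - g (σ.symm ((c : F)⁻¹ * u.x))))⟩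
  left_inv u := by
    have hc : (c : F) ≠ 0 := c.ne_zero
    have hφc : φ (c : F) ≠ 0 := (map_ne_zero φ).2 hc
    ext
    · simp [hc]
    · simp only [inv_mul_cancel_left₀ hc, RingEquiv.symm_apply_apply, add_sub_cancel_right]
      rw [inv_mul_cancel_left₀ (mul_ne_zero hφc hc)]
      simp
  right_inv u := by
    have hc : (c : F) ≠ 0 := c.ne_zero
    have hφc : φ (c : F) ≠ 0 := (map_ne_zero φ).2 hc
    ext
    · simp [hc]
    · simp only [RingEquiv.apply_symm_apply]
      rw [mul_inv_cancel_left₀ (mul_ne_zero hφc hc)]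
      ring
  map_mul' u v := by
    ext
    · simp only [TA.mul_x, map_add]; ring
    · simp only [TA.mul_x, TA.mul_y, map_add, map_mul, hσ]; ring

@[simp] theorem mk_x (hσ : ∀ σ : F ≃+* F, ∀ x, σ (φ x) = φ (σ x)) (g : F →+ F) (c : Fˣ) (σ : F ≃+* F)
    (u : TA φ) : (mk hσ g c σ u).x = c * σ u.x := rfl
@[simp] theorem mk_y (hσ : ∀ σ : F ≃+* F, ∀ x, σ (φ x) = φ (σ x)) (g : F →+ F) (c : Fˣ) (σ : F ≃+* F)
    (u : TA φ) : (mk hσ g c σ u).y = φ c * c * σ u.y + g u.x := rfl

theorem mk_injective (hσ : ∀ σ : F ≃+* F, ∀ x, σ (φ x) = φ (σ x)) :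
    Function.Injective (fun p : (F →+ F) × Fˣ × (F ≃+* F) => mk hσ p.1 p.2.1 p.2.2) := by
  rintro ⟨g, c, σ⟩ ⟨g', c', σ'⟩ h
  have h1 : ∀ u, mk hσ g c σ u = mk hσ g' c' σ' u := fun u => DFunLike.congr_fun h u
  have hc : c = c' := by
    have h2 := congrArg TA.x (h1 ⟨1, 0⟩)
    simp only [mk_x, map_one, mul_one] at h2
    exact Units.ext h2
  subst hc
  have hs : σ = σ' := by
    ext x
    have h2 := congrArg TA.x (h1 ⟨x, 0⟩)
    simp only [mk_x] at h2
    exact mul_left_cancel₀ c.ne_zero h2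
  subst hs
  have hg : g = g' := by
    ext x
    have h2 := congrArg TA.y (h1 ⟨x, 0⟩)
    simp only [mk_y, map_zero, mul_zero, zero_add] at h2
    exact h2
  subst hg
  rfl

variable [Finite F] [CharP F 2]

theorem sq_eq (u : TA φ) : u * u = ⟨0, φ u.x * u.x⟩ := by
  ext
  · simp only [TA.mul_x]; exact CharTwo.add_self_eq_zero _
  · simp only [TA.mul_y]; rw [CharTwo.add_self_eq_zero, zero_add]

theorem sq_eq_one {u : TA φ} : u * u = 1 ↔ u.x = 0 := by
  rw [sq_eq]
  constructor
  · intro h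
    have h1 : φ u.x * u.x = 0 := congrArg TA.y h
    rcases mul_eq_zero.1 h1 with h | h
    · exact (map_eq_zero φ).1 h
    · exact h
  · intro h
    rw [h]; ext <;> simp

/-- `x ↦ φ x * x` is onto -/
theorem norm_surj (hφ2 : ∀ x, φ (φ x) = x ^ 2) : Function.Surjective (fun x : F => φ x * x) := by
  apply Finite.injective_iff_surjective.1
  intro a b hab
  simp only at hab
  by_cases hb : b = 0
  · subst hb
    rw [mul_zero] at hab
    rcases mul_eq_zero.1 hab with h | h
    · exact (map_eq_zero φ).1 h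
    · exact h
  have h1 : φ (a / b) * (a / b) = 1 := by
    rw [map_div₀, div_mul_div_comm, hab, div_self]
    exact mul_ne_zero ((map_ne_zero φ).2 hb) hb
  have h2 : φ (φ (a / b)) * φ (a / b) = 1 := by
    rw [← map_mul, h1, map_one]
  have h3 : φ (a / b) ≠ 0 := left_ne_zero_of_mul_eq_one h1
  have h4 : φ (φ (a / b)) = a / b := by
    apply mul_right_cancel₀ h3
    rw [h2, mul_comm, h1]
  rw [hφ2] at h4
  have h5 : a / b ≠ 0 := right_ne_zero_of_mul_eq_one h1
  have h6 : a / b = 1 := by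
    exact mul_right_cancel₀ h5 (by rw [one_mul, ← sq, h4])
  exact (div_eq_one_iff_eq hb).1 h6

theorem mk_surjective (hσ : ∀ σ : F ≃+* F, ∀ x, σ (φ x) = φ (σ x)) (hφ2 : ∀ x, φ (φ x) = x ^ 2)
    (hbig : ∃ x : F, x ^ 4 ≠ x) :
    Function.Surjective (fun p : (F →+ F) × Fˣ × (F ≃+* F) => mk hσ p.1 p.2.1 p.2.2) := by
  classical
  intro f
  haveI := finite_aut F
  haveI := Fintype.ofFinite (F ≃+* F)
  have hx0 : ∀ u : TA φ, u.x = 0 ↔ (f u).x = 0 := by
    intro u
    rw [← sq_eq_one, ← sq_eq_one, ← map_mul]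
    exact (map_eq_one_iff f f.injective).symm
  have hdec : ∀ u : TA φ, u = ⟨u.x, 0⟩ * ⟨0, u.y⟩ := by
    intro u
    ext <;> simp
  let A : F →+ F :=
    { toFun := fun x => (f ⟨x, 0⟩).x
      map_zero' := (hx0 ⟨0, 0⟩).1 rfl
      map_add' := by
        intro x y
        have h1 : (⟨x, 0⟩ : TA φ) * ⟨y, 0⟩ = ⟨x + y, 0⟩ * ⟨0, φ x * y⟩ := by
          ext <;> simp
        have h2 := congrArg (fun u => (f u).x) h1
        simp only [map_mul, TA.mul_x] at h2
        rw [(hx0 ⟨0, φ x * y⟩).1 rfl, add_zero] at h2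
        exact h2.symm }
  let B : F →+ F :=
    { toFun := fun y => (f ⟨0, y⟩).y
      map_zero' := by
        have : (⟨0, 0⟩ : TA φ) = 1 := rfl
        rw [this, map_one]; rfl
      map_add' := by
        intro x y
        have h1 : (⟨0, x⟩ : TA φ) * ⟨0, y⟩ = ⟨0, x + y⟩ := by
          ext <;> simp
        have h2 := congrArg (fun u => (f u).y) h1
        simp only [map_mul, TA.mul_y] at h2
        rw [(hx0 ⟨0, x⟩).1 rfl, map_zero, zero_mul, add_zero] at h2
        exact h2.symm }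
  have hAdef : ∀ x, A x = (f ⟨x, 0⟩).x := fun _ => rfl
  have hBdef : ∀ x, B x = (f ⟨0, x⟩).y := fun _ => rfl
  have hA : ∀ x, A x = 0 → x = 0 := fun x h => (hx0 ⟨x, 0⟩).2 h
  have hAB : ∀ x, B (φ x * x) = φ (A x) * A x := by
    intro x
    have h1 := sq_eq (f ⟨x, 0⟩)
    rw [← map_mul, sq_eq] at h1
    exact congrArg TA.y h1
  have hφb : Function.Bijective φ := Finite.injective_iff_bijective.1 φ.injective
  let φE : F ≃+* F := RingEquiv.ofBijective φ hφb
  have hφE : ∀ x, φE x = φ x := fun _ => rfl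
  obtain ⟨c, σ, hc, hAc⟩ := semilin φE (fun τ => by ext x; exact (hσ τ x).symm) hφ2 hbig A B hA hAB
  have hBc : ∀ z, B z = φ c * c * σ z := by
    intro z
    obtain ⟨x, rfl⟩ := norm_surj hφ2 z
    simp only
    rw [hAB, hAc, map_mul, map_mul, hσ]
    ring
  let g : F →+ F :=
    { toFun := fun x => (f ⟨x, 0⟩).y
      map_zero' := by
        have : (⟨0, 0⟩ : TA φ) = 1 := rfl
        rw [this, map_one]; rfl
      map_add' := by
        intro x y
        have h1 : (⟨x, 0⟩ : TA φ) * ⟨y, 0⟩ = ⟨x + y, 0⟩ * ⟨0, φ x * y⟩ := by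
          ext <;> simp
        have h2 := congrArg (fun u => (f u).y) h1
        simp only [map_mul, TA.mul_y] at h2
        rw [← hBdef, (hx0 ⟨0, φ x * y⟩).1 rfl, mul_zero, add_zero, ← hAdef, ← hAdef, hBc, hAc, hAc,
          map_mul, map_mul, hσ] at h2
        linear_combination -h2 }
  refine ⟨⟨g, Units.mk0 c hc, σ⟩, ?_⟩
  apply MulEquiv.ext
  intro u
  show mk hσ g (Units.mk0 c hc) σ u = f u
  conv_rhs => rw [hdec u, map_mul]
  ext
  · simp only [mk_x, TA.mul_x, Units.val_mk0]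
    rw [(hx0 ⟨0, u.y⟩).1 rfl, add_zero, ← hAdef, hAc]
  · simp only [mk_y, TA.mul_y, Units.val_mk0]
    rw [(hx0 ⟨0, u.y⟩).1 rfl, mul_zero, add_zero, ← hBdef, hBc]
    show _ + (f ⟨u.x, 0⟩).y = _
    ring

/-- the automorphisms acting trivially on the first coordinate -/
def K (φ : F →+* F) : Subgroup (MulAut (TA φ)) where
  carrier := {f | ∀ u, (f u).x = u.x}
  one_mem' _ := rfl
  mul_mem' := by
    intro a b ha hb u
    show (a (b u)).x = u.x
    rw [ha, hb]
  inv_mem' := by
    intro a ha u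
    have h1 := ha (a⁻¹ u)
    have h2 : a (a⁻¹ u) = u := a.apply_symm_apply u
    rw [h2] at h1
    exact h1.symm

end aut

section count

theorem card_hom {F : Type*} [Field F] [Finite F] [CharP F 2] {n : ℕ} (hF : Nat.card F = 2 ^ n) :
    Nat.card (F →+ F) = 2 ^ (n ^ 2) := by
  let _ : Algebra (ZMod 2) F := ZMod.algebra F 2
  have e : (F →+ F) ≃ (F →ₗ[ZMod 2] F) := (AddMonoidHom.toZModLinearMapEquiv 2).toEquiv
  rw [Nat.card_congr e]
  have h1 : Module.finrank (ZMod 2) F = n := by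
    have h2 := Module.natCard_eq_pow_finrank (K := ZMod 2) (V := F)
    rw [hF, Nat.card_zmod] at h2
    exact (Nat.pow_right_injective le_rfl h2).symm
  rw [Module.natCard_eq_pow_finrank (K := ZMod 2), Module.finrank_linearMap, h1, Nat.card_zmod, sq]

theorem card_aut {F : Type*} [Field F] [Finite F] [CharP F 2] {n : ℕ} (hF : Nat.card F = 2 ^ n) :
    Nat.card (F ≃+* F) = n := by
  let _ : Algebra (ZMod 2) F := ZMod.algebra F 2
  let e : Gal(F/ZMod 2) ≃ (F ≃+* F) :=
    { toFun := fun σ => σ.toRingEquiv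
      invFun := fun σ => AlgEquiv.ofRingEquiv (f := σ) (fun r => by
        obtain ⟨n, rfl⟩ := ZMod.natCast_zmod_surjective r
        simp)
      left_inv := fun σ => by ext; rfl
      right_inv := fun σ => by ext; rfl }
  rw [← Nat.card_congr e, IsGalois.card_aut_eq_finrank]
  have h2 := Module.natCard_eq_pow_finrank (K := ZMod 2) (V := F)
  rw [hF, Nat.card_zmod] at h2
  exact (Nat.pow_right_injective le_rfl h2).symm

end count

end Cfsg.Agent.H38.AutSz
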