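import Mathlib

/-! Numerical facts about the 2-part of `n!` used for nilpotent permutation groups. -/

set_option autoImplicit false

namespace Cfsg.Agent.H38.NilNum

open Nat

/-- `p`-part of `n!`, the order of a Sylow `p`-subgroup of `S_n`. -/
def ps (p n : ℕ) : ℕ := p ^ (n !).factorization p

theorem ps_pos {p : ℕ} (hp : p.Prime) (n : ℕ) : 0 < ps p n := pow_pos hp.pos _

theorem ps_mul_le {p : ℕ} (hp : p.Prime) (a b : ℕ) : ps p a * ps p b ≤ ps p (a + b) := by
  unfold ps
  rw [← pow_add]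
  apply Nat.pow_le_pow_right hp.pos
  have h1 := Nat.factorial_mul_factorial_dvd_factorial_add a b
  have h2 := (Nat.factorization_le_iff_dvd (mul_ne_zero (factorial_ne_zero a) (factorial_ne_zero b))
    (factorial_ne_zero _)).2 h1
  have h3 := h2 p
  rw [Nat.factorization_mul (factorial_ne_zero a) (factorial_ne_zero b)] at h3
  simpa using h3

theorem ps_mono {p : ℕ} (hp : p.Prime) {a b : ℕ} (h : a ≤ b) : ps p a ≤ ps p b := by
  unfold ps
  apply Nat.pow_le_pow_right hp.pos
  exact (Nat.factorization_le_iff_dvd (factorial_ne_zero a) (factorial_ne_zero b)).2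
    (Nat.factorial_dvd_factorial h) p

theorem ps_succ {p : ℕ} (n : ℕ) : ps p (n + 1) = p ^ (n + 1).factorization p * ps p n := by
  unfold ps
  rw [Nat.factorial_succ, Nat.factorization_mul (by omega) (factorial_ne_zero n), Finsupp.add_apply, pow_add]

theorem ps_succ_of_not_dvd {p : ℕ} (n : ℕ) (h : ¬ p ∣ n + 1) : ps p (n + 1) = ps p n := by
  rw [ps_succ, Nat.factorization_eq_zero_of_not_dvd h, pow_zero, one_mul]

/-- The order of a Sylow 2-subgroup of `S_{4k}`. -/
def F (k : ℕ) : ℕ := ps 2 (4 * k)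

theorem F_pos (k : ℕ) : 0 < F k := ps_pos Nat.prime_two _

theorem F_zero : F 0 = 1 := by simp [F, ps]

theorem ps_zero : ps 2 0 = 1 := by simp [ps]

theorem f_one (k : ℕ) : ps 2 (4 * k + 1) = F k := by
  rw [ps_succ_of_not_dvd _ (by omega)]; rfl

theorem f_two (k : ℕ) : ps 2 (4 * k + 2) = 2 * F k := by
  rw [show 4 * k + 2 = (4 * k + 1) + 1 by ring, ps_succ, f_one]
  have : (4 * k + 1 + 1).factorization 2 = 1 := by
    rw [show 4 * k + 1 + 1 = 2 * (2 * k + 1) by ring, Nat.factorization_mul (by norm_num) (by omega),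
      Finsupp.add_apply, Nat.Prime.factorization_self Nat.prime_two,
      Nat.factorization_eq_zero_of_not_dvd (show ¬ 2 ∣ 2 * k + 1 by omega)]
  rw [this, pow_one]

theorem f_three (k : ℕ) : ps 2 (4 * k + 3) = 2 * F k := by
  rw [show 4 * k + 3 = (4 * k + 2) + 1 by ring, ps_succ_of_not_dvd _ (by omega), f_two]

theorem F_succ (k : ℕ) : F (k + 1) = 8 * F k * 2 ^ (k + 1).factorization 2 := by
  have h : F (k + 1) = ps 2 ((4 * k + 3) + 1) := rfl
  rw [h, ps_succ, f_three]
  have : (4 * k + 3 + 1).factorization 2 = 2 + (k + 1).factorization 2 := by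
    rw [show 4 * k + 3 + 1 = 2 * (2 * (k + 1)) by ring, Nat.factorization_mul (by norm_num) (by omega),
      Nat.factorization_mul (by norm_num) (by omega),
      Finsupp.add_apply, Finsupp.add_apply, Nat.Prime.factorization_self Nat.prime_two]
    ring
  rw [this, pow_add]
  ring

theorem F_succ_ge (k : ℕ) : 8 * F k ≤ F (k + 1) := by
  rw [F_succ]
  exact Nat.le_mul_of_pos_right _ (by positivity)

theorem F_mul_le (i j : ℕ) : F i * F j ≤ F (i + j) := by
  have := ps_mul_le Nat.prime_two (4 * i) (4 * j)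
  rw [← mul_add] at this
  exact this

theorem F_mono {i j : ℕ} (h : i ≤ j) : F i ≤ F j := ps_mono Nat.prime_two (by omega)

theorem F_one : F 1 = 8 := by
  rw [F_succ, F_zero]; norm_num

theorem F_two : F 2 = 128 := by
  rw [F_succ, F_one]
  have : (1 + 1).factorization 2 = 1 := Nat.Prime.factorization_self Nat.prime_two
  rw [this]; norm_num

theorem F_three : F 3 = 1024 := by
  rw [F_succ, F_two]
  have : (2 + 1).factorization 2 = 0 := Nat.factorization_eq_zero_of_not_dvd (by norm_num)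
  rw [this]; norm_num

theorem F_four : F 4 = 32768 := by
  rw [F_succ, F_three]
  have : (3 + 1).factorization 2 = 2 := by
    rw [show 3 + 1 = 2 ^ 2 by norm_num, Nat.Prime.factorization_pow Nat.prime_two]; simp
  rw [this]; norm_num

theorem F_five : F 5 = 262144 := by
  rw [F_succ, F_four]
  have : (4 + 1).factorization 2 = 0 := Nat.factorization_eq_zero_of_not_dvd (by norm_num)
  rw [this]; norm_num

theorem eight_pow_le (k : ℕ) : 8 ^ k ≤ F k := by
  induction k with
  | zero => rw [F_zero]; norm_num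
  | succ k ih =>
    calc 8 ^ (k + 1) = 8 * 8 ^ k := by ring
      _ ≤ 8 * F k := by omega
      _ ≤ F (k + 1) := F_succ_ge k

theorem nine_pow_le (k : ℕ) (hk : k ≠ 1) : 9 ^ k ≤ F k := by
  induction k using Nat.strong_induction_on with
  | _ k ih =>
    rcases Nat.lt_or_ge k 4 with h | h
    · interval_cases k
      · rw [F_zero]; norm_num
      · exact absurd rfl hk
      · rw [F_two]; norm_num
      · rw [F_three]; norm_num
    · have h1 := ih (k - 2) (by omega) (by omega)
      have h2 := F_mul_le (k - 2) 2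
      rw [show k - 2 + 2 = k by omega, F_two] at h2
      calc 9 ^ k = 9 ^ (k - 2) * 81 := by
            rw [show (81 : ℕ) = 9 ^ 2 by norm_num, ← pow_add]; congr 1; omega
        _ ≤ F (k - 2) * 128 := Nat.mul_le_mul h1 (by norm_num)
        _ ≤ F k := h2

theorem two_nine_pow_le (k : ℕ) (hk : 4 ≤ k) : 2 * 9 ^ k ≤ F k := by
  induction k using Nat.strong_induction_on with
  | _ k ih =>
    rcases Nat.lt_or_ge k 6 with h | h
    · interval_cases k
      · rw [F_four]; norm_num
      · rw [F_five]; norm_num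
    · have h1 := ih (k - 2) (by omega) (by omega)
      have h2 := F_mul_le (k - 2) 2
      rw [show k - 2 + 2 = k by omega, F_two] at h2
      calc 2 * 9 ^ k = 2 * 9 ^ (k - 2) * 81 := by
            rw [mul_assoc, show (81 : ℕ) = 9 ^ 2 by norm_num, ← pow_add]; congr 2; omega
        _ ≤ F (k - 2) * 128 := Nat.mul_le_mul h1 (by norm_num)
        _ ≤ F k := h2

/-- Maximal order of a nilpotent subgroup of `S_n`. -/
def H (n : ℕ) : ℕ := if n % 4 = 3 then 3 * ps 2 (n - 3) else ps 2 n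

theorem H_zero' (k : ℕ) : H (4 * k) = F k := by
  unfold H; rw [if_neg (by omega)]; rfl

theorem H_one (k : ℕ) : H (4 * k + 1) = F k := by
  unfold H; rw [if_neg (by omega), f_one]

theorem H_two (k : ℕ) : H (4 * k + 2) = 2 * F k := by
  unfold H; rw [if_neg (by omega), f_two]

theorem H_three (k : ℕ) : H (4 * k + 3) = 3 * F k := by
  unfold H; rw [if_pos (by omega)]; rfl

theorem exists_eq (n : ℕ) : ∃ k, n = 4 * k ∨ n = 4 * k + 1 ∨ n = 4 * k + 2 ∨ n = 4 * k + 3 :=
  ⟨n / 4, by omega⟩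

theorem ps_le_H (n : ℕ) : ps 2 n ≤ H n := by
  obtain ⟨k, rfl | rfl | rfl | rfl⟩ := exists_eq n
  · exact (H_zero' k).ge
  · rw [H_one, f_one]
  · rw [H_two, f_two]
  · rw [H_three, f_three]; have := F_pos k; omega

theorem H_pos (n : ℕ) : 0 < H n := lt_of_lt_of_le (ps_pos Nat.prime_two n) (ps_le_H n)

theorem H_mul_le (a b : ℕ) : H a * H b ≤ H (a + b) := by
  obtain ⟨i, hi⟩ := exists_eq a
  obtain ⟨j, hj⟩ := exists_eq b
  have h1 := F_mul_le i j
  have h2 := F_succ_ge (i + j)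
  rcases hi with rfl | rfl | rfl | rfl <;> rcases hj with rfl | rfl | rfl | rfl
  · rw [H_zero', H_zero', show 4 * i + 4 * j = 4 * (i + j) by ring, H_zero']; exact h1
  · rw [H_zero', H_one, show 4 * i + (4 * j + 1) = 4 * (i + j) + 1 by ring, H_one]; exact h1
  · rw [H_zero', H_two, show 4 * i + (4 * j + 2) = 4 * (i + j) + 2 by ring, H_two]
    nlinarith
  · rw [H_zero', H_three, show 4 * i + (4 * j + 3) = 4 * (i + j) + 3 by ring, H_three]
    nlinarith
  · rw [H_one, H_zero', show 4 * i + 1 + (4 * j) = 4 * (i + j) + 1 by ring, H_one]; exact h1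
  · rw [H_one, H_one, show 4 * i + 1 + (4 * j + 1) = 4 * (i + j) + 2 by ring, H_two]
    nlinarith
  · rw [H_one, H_two, show 4 * i + 1 + (4 * j + 2) = 4 * (i + j) + 3 by ring, H_three]
    nlinarith
  · rw [H_one, H_three, show 4 * i + 1 + (4 * j + 3) = 4 * (i + j + 1) by ring, H_zero']
    nlinarith
  · rw [H_two, H_zero', show 4 * i + 2 + (4 * j) = 4 * (i + j) + 2 by ring, H_two]
    nlinarith
  · rw [H_two, H_one, show 4 * i + 2 + (4 * j + 1) = 4 * (i + j) + 3 by ring, H_three]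
    nlinarith
  · rw [H_two, H_two, show 4 * i + 2 + (4 * j + 2) = 4 * (i + j + 1) by ring, H_zero']
    nlinarith
  · rw [H_two, H_three, show 4 * i + 2 + (4 * j + 3) = 4 * (i + j + 1) + 1 by ring, H_one]
    nlinarith
  · rw [H_three, H_zero', show 4 * i + 3 + (4 * j) = 4 * (i + j) + 3 by ring, H_three]
    nlinarith
  · rw [H_three, H_one, show 4 * i + 3 + (4 * j + 1) = 4 * (i + j + 1) by ring, H_zero']
    nlinarith
  · rw [H_three, H_two, show 4 * i + 3 + (4 * j + 2) = 4 * (i + j + 1) + 1 by ring, H_one]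
    nlinarith
  · rw [H_three, H_three, show 4 * i + 3 + (4 * j + 3) = 4 * (i + j + 1) + 2 by ring, H_two]
    nlinarith

theorem le_of_sq_le {a b : ℕ} (h : a ^ 2 ≤ b ^ 2) : a ≤ b := by
  by_contra hc
  push Not at hc
  nlinarith

/-- An odd-order bound `c ≤ 3^((m-1)/2)` gives `c ≤ H m` unless `m = 5, 7`. -/
theorem le_H_of_odd {c m : ℕ} (hm : m % 2 = 1) (h5 : m ≠ 5) (h7 : m ≠ 7) (h : c ≤ 3 ^ ((m - 1) / 2)) :
    c ≤ H m := by
  obtain ⟨k, rfl | rfl | rfl | rfl⟩ := exists_eq m
  · omega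
  · rw [H_one]
    refine le_trans (h.trans (le_of_eq ?_)) (nine_pow_le k (by omega))
    rw [show (9 : ℕ) = 3 ^ 2 by norm_num, ← pow_mul]; congr 1; omega
  · omega
  · rw [H_three]
    refine le_trans (h.trans (le_of_eq ?_)) (Nat.mul_le_mul_left 3 (nine_pow_le k (by omega)))
    rw [show (9 : ℕ) = 3 ^ 2 by norm_num, ← pow_mul, ← _root_.pow_succ']; congr 1; omega

/-- A nilpotent transitive group with both parts nontrivial. -/
theorem mul_le_H {a c x y : ℕ} (hx : 2 ∣ x) (hx0 : 0 < x) (hy : y % 2 = 1) (ha : a ≤ ps 2 x)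
    (hc : c ≤ 3 ^ ((y - 1) / 2)) : a * c ≤ H (x * y) := by
  refine le_trans ?_ (ps_le_H _)
  obtain ⟨u, rfl⟩ := hx
  obtain ⟨k, rfl⟩ : ∃ k, y = 2 * k + 1 := ⟨y / 2, by omega⟩
  have hc' : c ≤ 3 ^ k := by
    refine hc.trans (le_of_eq ?_)
    congr 1; omega
  have h3 : 3 ^ k ≤ ps 2 (4 * k) :=
    le_trans (Nat.pow_le_pow_left (by norm_num) k) (eight_pow_le k)
  have hu : 0 < u := by omega
  calc a * c ≤ ps 2 (2 * u) * ps 2 (4 * k) := Nat.mul_le_mul ha (hc'.trans h3)
    _ ≤ ps 2 (2 * u + 4 * k) := ps_mul_le Nat.prime_two _ _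
    _ ≤ ps 2 (2 * u * (2 * k + 1)) := ps_mono Nat.prime_two (by nlinarith)

/-- `2c ≤ H m` from an odd-order bound, `m` even. -/
theorem two_mul_le_H_even {c m : ℕ} (h0 : m ≠ 0) (h2 : m % 2 = 0) (h6 : m ≠ 6)
    (h : c ≤ 3 ^ ((m - 1) / 2)) : 2 * c ≤ H m := by
  obtain ⟨k, rfl | rfl | rfl | rfl⟩ := exists_eq m
  · rw [H_zero']
    obtain ⟨l, rfl⟩ : ∃ l, k = l + 1 := ⟨k - 1, by omega⟩
    have hc : c ≤ 3 * 9 ^ l := by
      refine h.trans (le_of_eq ?_)
      rw [show (9 : ℕ) = 3 ^ 2 by norm_num, ← pow_mul, ← _root_.pow_succ']; congr 1; omega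
    rcases eq_or_ne l 1 with rfl | hl
    · rw [F_two]; omega
    · have := nine_pow_le l hl
      have := F_succ_ge l
      omega
  · omega
  · rw [H_two]
    have hc : c ≤ 9 ^ k := by
      refine h.trans (le_of_eq ?_)
      rw [show (9 : ℕ) = 3 ^ 2 by norm_num, ← pow_mul]; congr 1; omega
    have := nine_pow_le k (by omega)
    omega
  · omega

/-- `2c ≤ H m` from an odd-order bound, `m` odd at least 17. -/
theorem two_mul_le_H_odd {c m : ℕ} (h2 : m % 2 = 1) (h17 : 17 ≤ m)
    (h : c ≤ 3 ^ ((m - 1) / 2)) : 2 * c ≤ H m := by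
  obtain ⟨k, rfl | rfl | rfl | rfl⟩ := exists_eq m
  · omega
  · rw [H_one]
    have hc : c ≤ 9 ^ k := by
      refine h.trans (le_of_eq ?_)
      rw [show (9 : ℕ) = 3 ^ 2 by norm_num, ← pow_mul]; congr 1; omega
    exact le_trans (by omega) (two_nine_pow_le k (by omega))
  · omega
  · rw [H_three]
    have hc : c ≤ 3 * 9 ^ k := by
      refine h.trans (le_of_eq ?_)
      rw [show (9 : ℕ) = 3 ^ 2 by norm_num, ← pow_mul, ← _root_.pow_succ']; congr 1; omega
    have := two_nine_pow_le k (by omega)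
    omega

theorem H_five : H 5 = 8 := by rw [show 5 = 4 * 1 + 1 by norm_num, H_one, F_one]
theorem H_seven : H 7 = 24 := by rw [show 7 = 4 * 1 + 3 by norm_num, H_three, F_one]
theorem H_eleven : H 11 = 384 := by rw [show 11 = 4 * 2 + 3 by norm_num, H_three, F_two]
theorem H_thirteen : H 13 = 1024 := by rw [show 13 = 4 * 3 + 1 by norm_num, H_one, F_three]
theorem H_fifteen : H 15 = 3072 := by rw [show 15 = 4 * 3 + 3 by norm_num, H_three, F_three]

/-- For odd `p`, the `p`-part of `n!` is at most `3^((n-1)/2)`. -/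
theorem ps_sq_le {p : ℕ} (hp : p.Prime) (hp3 : 3 ≤ p) (n : ℕ) : ps p n ^ 2 ≤ 3 ^ (n - 1) := by
  have hf : Fact p.Prime := ⟨hp⟩
  unfold ps
  have h1 : p ^ 2 ≤ 3 ^ (p - 1) := by
    obtain ⟨q, rfl⟩ : ∃ q, p = q + 3 := ⟨p - 3, by omega⟩
    clear hp hf hp3
    induction q with
    | zero => norm_num
    | succ q ih =>
      have h2 : q + 1 + 3 - 1 = (q + 3 - 1) + 1 := by omega
      rw [h2, pow_succ]
      have h3 : (q + 1 + 3) ^ 2 ≤ (q + 3) ^ 2 * 3 := by
        have h4 := Nat.zero_le (q ^ 2)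
        ring_nf
        linarith
      exact h3.trans (Nat.mul_le_mul_right 3 ih)
  have h2 : (p - 1) * (n !).factorization p ≤ n - 1 := by
    rcases Nat.eq_zero_or_pos n with rfl | hn
    · simp
    · have h3 := sub_one_mul_padicValNat_factorial_lt_of_ne_zero (p := p) (n := n) (by omega)
      rw [Nat.factorization_def _ hp]
      omega
  calc (p ^ (n !).factorization p) ^ 2 = (p ^ 2) ^ (n !).factorization p := by
        rw [← pow_mul, ← pow_mul, mul_comm]
    _ ≤ (3 ^ (p - 1)) ^ (n !).factorization p := Nat.pow_le_pow_left h1 _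
    _ = 3 ^ ((p - 1) * (n !).factorization p) := by rw [← pow_mul]
    _ ≤ 3 ^ (n - 1) := Nat.pow_le_pow_right (by norm_num) h2

theorem ps_le {p : ℕ} (hp : p.Prime) (hp3 : 3 ≤ p) {n : ℕ} (hn : n % 2 = 1) :
    ps p n ≤ 3 ^ ((n - 1) / 2) := by
  apply le_of_sq_le
  refine (ps_sq_le hp hp3 n).trans (le_of_eq ?_)
  rw [← pow_mul]; congr 1; omega

theorem ps_self {p : ℕ} (hp : p.Prime) : ps p p = p := by
  unfold ps
  rw [Nat.factorization_def _ hp]
  have hf : Fact p.Prime := ⟨hp⟩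
  have h := padicValNat_factorial_mul (p := p) 1
  rw [mul_one] at h
  rw [h]; simp

end Cfsg.Agent.H38.NilNum
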