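import Mathlib
import Cfsg.Agent.H38.NilNum
import Cfsg.Agent.H52.Nilp

/-! Orders of nilpotent permutation groups. -/

set_option autoImplicit false

namespace Cfsg.Agent.H38.NilPerm

open MulAction
open Cfsg.Agent.H38.NilNum

/-- Decomposition of a finite nilpotent group into its `p`-part and `p'`-part. -/
theorem exists_decomp {G : Type*} [Group G] [Finite G] (hG : Group.IsNilpotent G) (p : ℕ)
    [hp : Fact p.Prime] :
    ∃ P Q : Subgroup G, IsPGroup p P ∧ (Nat.card Q).Coprime p ∧ Nat.card P * Nat.card Q = Nat.card G ∧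
      (∀ x ∈ P, ∀ y ∈ Q, x * y = y * x) ∧ (∀ g : G, ∃ x ∈ P, ∃ y ∈ Q, g = x * y) := by
  classical
  obtain ⟨P⟩ : Nonempty (Sylow p G) := inferInstance
  have hN : (P : Subgroup G).Normal :=
    ((Group.isNilpotent_of_finite_tfae (G := G)).out 0 3 rfl rfl |>.mp hG) p hp P
  obtain ⟨Q, hQ⟩ := Subgroup.exists_right_complement'_of_coprime P.card_coprime_index
  have hcard : Nat.card P * Nat.card Q = Nat.card G := hQ.card_mul_card
  have hcopPQ : (Nat.card P).Coprime (Nat.card Q) := by
    have h1 := P.card_coprime_index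
    have h2 := (P : Subgroup G).card_mul_index
    have h3 : Nat.card Q = (P : Subgroup G).index := by
      have h4 : 0 < Nat.card (P : Subgroup G) := Nat.card_pos
      apply Nat.eq_of_mul_eq_mul_left h4
      rw [h2]; exact hcard
    rw [h3]; exact h1
  refine ⟨P, Q, P.isPGroup', ?_, hcard, ?_, ?_⟩
  · have h1 := P.not_dvd_index
    have h2 := (P : Subgroup G).card_mul_index
    have h3 : Nat.card Q = (P : Subgroup G).index := by
      have h4 : 0 < Nat.card (P : Subgroup G) := Nat.card_pos
      apply Nat.eq_of_mul_eq_mul_left h4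
      rw [h2]; exact hcard
    rw [h3]
    exact ((Nat.Prime.coprime_iff_not_dvd hp.out).2 h1).symm
  · intro x hx y hy
    apply Cfsg.Agent.H52.commute_of_isNilpotent_of_coprime hG
    exact Nat.Coprime.coprime_dvd_left (Subgroup.orderOf_dvd_natCard _ hx)
      (Nat.Coprime.coprime_dvd_right (Subgroup.orderOf_dvd_natCard _ hy) hcopPQ)
  · intro g
    obtain ⟨⟨x, y⟩, hxy⟩ := (hQ : Function.Bijective _).2 g
    exact ⟨x, x.2, y, y.2, hxy.symm⟩

section trans

variable {G X : Type*} [Group G] [MulAction G X]

theorem faithful_orbit [FaithfulSMul G X] [IsPretransitive G X] {P Q : Subgroup G}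
    (hc : ∀ x ∈ P, ∀ y ∈ Q, x * y = y * x)
    (hg : ∀ g : G, ∃ x ∈ P, ∃ y ∈ Q, g = x * y) (x0 : X) : FaithfulSMul Q (orbit Q x0) := by
  refine ⟨fun {q1 q2} h => ?_⟩
  apply Subtype.ext
  apply FaithfulSMul.eq_of_smul_eq_smul (α := X)
  intro a
  obtain ⟨g, rfl⟩ := exists_smul_eq G x0 a
  obtain ⟨x, hx, y, hy, rfl⟩ := hg g
  have h1 := congrArg Subtype.val (h ⟨y • x0, ⟨⟨y, hy⟩, rfl⟩⟩)
  have h1' : (q1 : G) • (y • x0) = (q2 : G) • (y • x0) := h1
  rw [smul_smul, smul_smul, ← mul_assoc, ← mul_assoc, ← hc x hx _ q1.2, ← hc x hx _ q2.2, mul_assoc,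
    mul_assoc, ← smul_smul x, ← smul_smul x, ← smul_smul _ y, ← smul_smul _ y, h1']

theorem card_orbit_mul [Finite G] [IsPretransitive G X] {P Q : Subgroup G}
    (hcop : (Nat.card P).Coprime (Nat.card Q))
    (hc : ∀ x ∈ P, ∀ y ∈ Q, x * y = y * x)
    (hg : ∀ g : G, ∃ x ∈ P, ∃ y ∈ Q, g = x * y)
    (hcard : Nat.card P * Nat.card Q = Nat.card G) (x0 : X) :
    Nat.card (orbit P x0) * Nat.card (orbit Q x0) = Nat.card X := by
  have hP : Nat.card (orbit P x0) * Nat.card (stabilizer P x0) = Nat.card P := by
    rw [← Nat.card_prod]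
    exact Nat.card_congr (orbitProdStabilizerEquivGroup P x0)
  have hQ : Nat.card (orbit Q x0) * Nat.card (stabilizer Q x0) = Nat.card Q := by
    rw [← Nat.card_prod]
    exact Nat.card_congr (orbitProdStabilizerEquivGroup Q x0)
  have hGG : Nat.card X * Nat.card (stabilizer G x0) = Nat.card G := by
    rw [← Nat.card_congr (orbitProdStabilizerEquivGroup G x0), Nat.card_prod, orbit_eq_univ,
      Nat.card_congr (Equiv.Set.univ X)]
  have hS : Nat.card (stabilizer P x0) * Nat.card (stabilizer Q x0) = Nat.card (stabilizer G x0) := by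
    rw [← Nat.card_prod]
    have hmem : ∀ ab : (stabilizer P x0) × (stabilizer Q x0),
        ((ab.1 : P) : G) * ((ab.2 : Q) : G) ∈ stabilizer G x0 := by
      rintro ⟨a, b⟩
      have ha : ((a : P) : G) • x0 = x0 := a.2
      have hb : ((b : Q) : G) • x0 = x0 := b.2
      rw [mem_stabilizer_iff, mul_smul, hb, ha]
    apply Nat.card_eq_of_bijective
      (fun ab : (stabilizer P x0) × (stabilizer Q x0) =>
        (⟨((ab.1 : P) : G) * ((ab.2 : Q) : G), hmem ab⟩ : stabilizer G x0))
    constructor
    · rintro ⟨a, b⟩ ⟨a', b'⟩ h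
      have h1 : ((a : P) : G) * ((b : Q) : G) = ((a' : P) : G) * ((b' : Q) : G) := congrArg Subtype.val h
      have h2 : ((a' : P) : G)⁻¹ * ((a : P) : G) = ((b' : Q) : G) * ((b : Q) : G)⁻¹ := by
        rw [inv_mul_eq_iff_eq_mul, ← mul_assoc, ← h1, mul_inv_cancel_right]
      have hdis : Disjoint P Q := Subgroup.disjoint_of_coprime_natCard hcop
      have h3 : ((a' : P) : G)⁻¹ * ((a : P) : G) = 1 := by
        apply Subgroup.disjoint_def.1 hdis (P.mul_mem (P.inv_mem (a' : P).2) (a : P).2)
        rw [h2]; exact Q.mul_mem (b' : Q).2 (Q.inv_mem (b : Q).2)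
      have h4 : ((a : P) : G) = ((a' : P) : G) := by
        rw [inv_mul_eq_one] at h3; exact h3.symm
      have h5 : ((b : Q) : G) = ((b' : Q) : G) := by
        rw [h4] at h1; exact mul_left_cancel h1
      rw [Prod.mk.injEq]
      exact ⟨Subtype.ext (Subtype.ext h4), Subtype.ext (Subtype.ext h5)⟩
    · rintro ⟨g, hgs⟩
      obtain ⟨x, hx, y, hy, rfl⟩ := hg g
      have hxy : Commute x y := hc x hx y hy
      obtain ⟨k, hk1, hk2⟩ := Nat.chineseRemainder hcop 1 0
      have hx1 : x ^ k = x := by
        have h1 : x ^ Nat.card P = 1 := by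
          have := pow_card_eq_one' (x := (⟨x, hx⟩ : P))
          exact congrArg Subtype.val this
        have h2 : k ≡ 1 [MOD orderOf x] := hk1.of_dvd (orderOf_dvd_of_pow_eq_one h1)
        rw [pow_eq_pow_iff_modEq.2 h2, pow_one]
      have hy1 : y ^ k = 1 := by
        have h1 : y ^ Nat.card Q = 1 := by
          have := pow_card_eq_one' (x := (⟨y, hy⟩ : Q))
          exact congrArg Subtype.val this
        have h2 : k ≡ 0 [MOD orderOf y] := hk2.of_dvd (orderOf_dvd_of_pow_eq_one h1)
        rw [pow_eq_pow_iff_modEq.2 h2, pow_zero]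
      have hxs : x ∈ stabilizer G x0 := by
        have := (stabilizer G x0).pow_mem hgs k
        rwa [hxy.mul_pow, hx1, hy1, mul_one] at this
      have hys : y ∈ stabilizer G x0 := by
        have := (stabilizer G x0).mul_mem ((stabilizer G x0).inv_mem hxs) hgs
        rwa [inv_mul_cancel_left] at this
      exact ⟨⟨⟨⟨x, hx⟩, hxs⟩, ⟨⟨y, hy⟩, hys⟩⟩, rfl⟩
  have hpos : 0 < Nat.card (stabilizer G x0) := Nat.card_pos
  apply Nat.eq_of_mul_eq_mul_right hpos
  rw [hGG, ← hcard, ← hP, ← hQ, ← hS]
  ring

end trans

/-- A `p`-group acting faithfully on `n` points has order at most `ps p n`. -/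
theorem card_le_ps {G X : Type*} [Group G] [MulAction G X] [Finite X] [FaithfulSMul G X] {p : ℕ}
    (hp : p.Prime) (hG : IsPGroup p G) : Nat.card G ≤ ps p (Nat.card X) := by
  have hf : Fact p.Prime := ⟨hp⟩
  have : Finite G := Finite.of_injective (toPermHom G X) toPerm_injective
  have h1 : Nat.card G ∣ (Nat.card X).factorial := by
    rw [← Nat.card_perm]
    exact Subgroup.card_dvd_of_injective (toPermHom G X) toPerm_injective
  obtain ⟨k, hk⟩ := IsPGroup.iff_card.1 hG
  rw [hk] at h1 ⊢
  apply Nat.pow_le_pow_right hp.pos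
  exact (hp.pow_dvd_iff_le_factorization (Nat.factorial_ne_zero _)).1 h1

theorem range_nilpotent {G X : Type*} [Group G] [MulAction G X] (hG : Group.IsNilpotent G) :
    Group.IsNilpotent (toPermHom G X).range :=
  Group.nilpotent_of_surjective (toPermHom G X).rangeRestrict (MonoidHom.rangeRestrict_surjective _)

theorem card_le_mul_of_invariant {G X : Type*} [Group G] [Finite G] [MulAction G X] [Finite X] [FaithfulSMul G X]
    (S : SubMulAction G X) :
    Nat.card G ≤ Nat.card (toPermHom G S).range * Nat.card (toPermHom G (Sᶜ : SubMulAction G X)).range := by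
  rw [← Nat.card_prod]
  apply Nat.card_le_card_of_injective
    (fun g => ((toPermHom G S).rangeRestrict g, (toPermHom G (Sᶜ : SubMulAction G X)).rangeRestrict g))
  intro a b h
  simp only [Prod.mk.injEq] at h
  apply FaithfulSMul.eq_of_smul_eq_smul (α := X)
  intro x
  by_cases hx : x ∈ S
  · have h1 := congrArg Subtype.val h.1
    have h2 := congrArg Subtype.val (Equiv.Perm.congr_fun h1 ⟨x, hx⟩)
    exact h2
  · have h1 := congrArg Subtype.val h.2
    have h2 := congrArg Subtype.val (Equiv.Perm.congr_fun h1 ⟨x, hx⟩)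
    exact h2

theorem card_add_compl {G X : Type*} [Group G] [MulAction G X] [Finite X] (S : SubMulAction G X) :
    Nat.card S + Nat.card (Sᶜ : SubMulAction G X) = Nat.card X := by
  classical
  have h := Nat.card_congr (Equiv.Set.sumCompl (S : Set X))
  rw [Nat.card_sum] at h
  exact h

/-- If the action is not transitive there is a proper nonempty invariant set. -/
theorem exists_invariant {G X : Type*} [Group G] [MulAction G X] [Finite X]
    (h : ¬ IsPretransitive G X) :
    ∃ S : SubMulAction G X, 0 < Nat.card S ∧ 0 < Nat.card (Sᶜ : SubMulAction G X) := by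
  rw [isPretransitive_iff] at h
  push Not at h
  obtain ⟨x, y, hxy⟩ := h
  refine ⟨⟨orbit G x, fun {c} {m} hm => mem_orbit_of_mem_orbit c hm⟩, ?_, ?_⟩
  · have : Nonempty (orbit G x) := ⟨⟨x, mem_orbit_self x⟩⟩
    exact Nat.card_pos (α := orbit G x)
  · have : Nonempty ((orbit G x)ᶜ : Set X) := ⟨⟨y, fun ⟨g, hg⟩ => hxy g hg⟩⟩
    exact Nat.card_pos (α := ((orbit G x)ᶜ : Set X))

theorem card_orbit_dvd {G X : Type*} [Group G] [MulAction G X] (x : X) :
    Nat.card (orbit G x) ∣ Nat.card G := by
  rw [← Nat.card_congr (orbitProdStabilizerEquivGroup G x), Nat.card_prod]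
  exact Dvd.intro _ rfl

/-- The structure of a transitive nilpotent permutation group at the prime `p`. -/
theorem trans_decomp {G X : Type*} [Group G] [Finite G] [MulAction G X] [FaithfulSMul G X]
    [IsPretransitive G X] (hG : Group.IsNilpotent G) (p : ℕ) [hp : Fact p.Prime] (x0 : X) :
    ∃ P Q : Subgroup G, IsPGroup p P ∧ (Nat.card Q).Coprime p ∧ Nat.card P * Nat.card Q = Nat.card G ∧
      FaithfulSMul P (orbit P x0) ∧ FaithfulSMul Q (orbit Q x0) ∧
      Nat.card (orbit P x0) * Nat.card (orbit Q x0) = Nat.card X := by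
  obtain ⟨P, Q, hP, hQ, hcard, hc, hg⟩ := exists_decomp hG p
  have hcop : (Nat.card P).Coprime (Nat.card Q) := by
    obtain ⟨k, hk⟩ := IsPGroup.iff_card.1 hP
    rw [hk]
    exact (Nat.Coprime.pow_right k hQ).symm
  refine ⟨P, Q, hP, hQ, hcard, ?_, ?_, card_orbit_mul hcop hc hg hcard x0⟩
  · refine faithful_orbit (P := Q) (Q := P) (fun x hx y hy => (hc y hy x hx).symm) ?_ x0
    intro g
    obtain ⟨x, hx, y, hy, h⟩ := hg g
    exact ⟨y, hy, x, hx, h.trans (hc x hx y hy)⟩
  · exact faithful_orbit hc hg x0

theorem odd_of_dvd {a b : ℕ} (hb : b % 2 = 1) (h : a ∣ b) : a % 2 = 1 := by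
  obtain ⟨c, rfl⟩ := h
  rcases Nat.mod_two_eq_zero_or_one a with h | h
  · rw [Nat.mul_mod, h] at hb; simp at hb
  · exact h

theorem half_add_le {x y : ℕ} (hx : 0 < x) (hy : 0 < y) :
    (x - 1) / 2 + (y - 1) / 2 ≤ (x * y - 1) / 2 := by
  have h : x + y ≤ x * y + 1 := by nlinarith
  omega

/-- Nilpotent groups of odd order on `n` points have order at most `3^((n-1)/2)`. -/
theorem odd_bound (n : ℕ) : ∀ (G X : Type) [Group G] [Finite G] [Finite X] [MulAction G X]
    [FaithfulSMul G X], Group.IsNilpotent G → Nat.card G % 2 = 1 → Nat.card X = n →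
    Nat.card G ≤ 3 ^ ((n - 1) / 2) := by
  induction n using Nat.strong_induction_on with
  | _ n ih =>
    intro G X _ _ _ _ _ hG hodd hX
    by_cases hT : IsPretransitive G X
    · by_cases h1 : Nat.card G = 1
      · rw [h1]; exact Nat.one_le_pow _ _ (by norm_num)
      obtain ⟨p, hp, hpd⟩ := Nat.exists_prime_and_dvd h1
      have hf := Fact.mk hp
      have hp3 : 3 ≤ p := by
        have h2 := odd_of_dvd hodd hpd
        have := hp.two_le
        omega
      obtain ⟨x0⟩ : Nonempty X := by
        by_contra hne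
        rw [not_nonempty_iff] at hne
        apply h1
        have : Subsingleton G := ⟨fun a b => FaithfulSMul.eq_of_smul_eq_smul (α := X) (fun x => hne.elim x)⟩
        exact Nat.card_of_subsingleton 1
      obtain ⟨P, Q, hP, hQ, hcard, fP, fQ, hxy⟩ := trans_decomp hG p x0
      have hPle := card_le_ps (X := orbit P x0) hp hP
      have hx2 := odd_of_dvd (odd_of_dvd hodd (Dvd.intro _ hcard)) (card_orbit_dvd (G := P) x0)
      have hx1 : 1 < Nat.card (orbit P x0) := by
        by_contra hle
        have h2 : Nat.card (orbit P x0) = 1 := by omega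
        have hpP : p ∣ Nat.card P := by
          rw [← hcard] at hpd
          rcases hp.dvd_mul.1 hpd with h | h
          · exact h
          · exfalso
            exact hp.one_lt.ne' (Nat.Coprime.eq_one_of_dvd hQ.symm h)
        have h3 : Nat.card P ≤ 1 := by
          refine hPle.trans ?_
          rw [h2]; simp [ps]
        have := Nat.le_of_dvd Nat.card_pos hpP
        omega
      have hnX : 0 < Nat.card (orbit Q x0) := by
        have : Nonempty (orbit Q x0) := ⟨⟨x0, mem_orbit_self x0⟩⟩
        exact Nat.card_pos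
      have hlt : Nat.card (orbit Q x0) < n := by
        rw [← hX, ← hxy]
        nlinarith
      have hQn : Group.IsNilpotent Q := Subgroup.isNilpotent Q
      have h4 := ih _ hlt Q (orbit Q x0) hQn (odd_of_dvd hodd (Dvd.intro_left _ hcard)) rfl
      have h5 := hPle.trans (ps_le hp hp3 hx2)
      rw [← hcard, ← hX, ← hxy]
      refine (Nat.mul_le_mul h5 h4).trans ?_
      rw [← pow_add]
      exact Nat.pow_le_pow_right (by norm_num) (half_add_le (by omega) hnX)
    · obtain ⟨S, hS1, hS2⟩ := exists_invariant hT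
      have h1 := card_le_mul_of_invariant S
      have h2 := card_add_compl S
      have h3 := ih (Nat.card S) (by omega) (toPermHom G S).range S (range_nilpotent hG)
        (odd_of_dvd hodd (Subgroup.card_range_dvd _)) rfl
      have h4 := ih (Nat.card (Sᶜ : SubMulAction G X)) (by omega)
        (toPermHom G (Sᶜ : SubMulAction G X)).range (Sᶜ : SubMulAction G X) (range_nilpotent hG)
        (odd_of_dvd hodd (Subgroup.card_range_dvd _)) rfl
      refine h1.trans ((Nat.mul_le_mul h3 h4).trans ?_)
      rw [← pow_add]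
      exact Nat.pow_le_pow_right (by norm_num) (by omega)

theorem odd_bound_intrans {G X : Type} [Group G] [Finite G] [Finite X] [MulAction G X]
    [FaithfulSMul G X] (hG : Group.IsNilpotent G) (hodd : Nat.card G % 2 = 1)
    (hT : ¬ IsPretransitive G X) : Nat.card G ≤ 3 ^ ((Nat.card X - 2) / 2) := by
  obtain ⟨S, hS1, hS2⟩ := exists_invariant hT
  have h1 := card_le_mul_of_invariant S
  have h2 := card_add_compl S
  have h3 := odd_bound (Nat.card S) (toPermHom G S).range S (range_nilpotent hG)
    (odd_of_dvd hodd (Subgroup.card_range_dvd _)) rfl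
  have h4 := odd_bound (Nat.card (Sᶜ : SubMulAction G X))
    (toPermHom G (Sᶜ : SubMulAction G X)).range (Sᶜ : SubMulAction G X) (range_nilpotent hG)
    (odd_of_dvd hodd (Subgroup.card_range_dvd _)) rfl
  refine h1.trans ((Nat.mul_le_mul h3 h4).trans ?_)
  rw [← pow_add]
  exact Nat.pow_le_pow_right (by norm_num) (by omega)

/-- Transitive nilpotent groups of odd order and degree divisible by the prime `p`. -/
theorem odd_bound_trans {G X : Type} [Group G] [Finite G] [Finite X] [Nonempty X] [MulAction G X]
    [FaithfulSMul G X] (hG : Group.IsNilpotent G) (hodd : Nat.card G % 2 = 1)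
    [IsPretransitive G X] (p : ℕ) [hp : Fact p.Prime] :
    ∃ x y k : ℕ, x * y = Nat.card X ∧ x = p ^ k ∧ y.Coprime p ∧
      Nat.card G ≤ ps p x * 3 ^ ((y - 1) / 2) := by
  obtain ⟨x0⟩ : Nonempty X := inferInstance
  obtain ⟨P, Q, hP, hQ, hcard, fP, fQ, hxy⟩ := trans_decomp hG p x0
  have hPle := card_le_ps (X := orbit P x0) hp.out hP
  have hQn : Group.IsNilpotent Q := Subgroup.isNilpotent Q
  have h4 := odd_bound _ Q (orbit Q x0) hQn (odd_of_dvd hodd (Dvd.intro_left _ hcard)) rfl
  obtain ⟨k, hk⟩ := hP.card_orbit x0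
  refine ⟨_, _, k, hxy, hk, Nat.Coprime.coprime_dvd_left (card_orbit_dvd x0) hQ, ?_⟩
  rw [← hcard]
  exact Nat.mul_le_mul hPle h4

theorem odd_prime_degree {G X : Type} [Group G] [Finite G] [Finite X] [MulAction G X]
    [FaithfulSMul G X] (hG : Group.IsNilpotent G) (hodd : Nat.card G % 2 = 1)
    [IsPretransitive G X] {p : ℕ} (hp : p.Prime) (hX : Nat.card X = p) : Nat.card G ≤ p := by
  have hf := Fact.mk hp
  have hne : Nonempty X := by
    by_contra hne
    rw [not_nonempty_iff] at hne
    rw [Nat.card_of_isEmpty] at hX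
    exact hp.ne_zero hX.symm
  obtain ⟨x, y, k, hxy, hx, hy, hle⟩ := odd_bound_trans (X := X) hG hodd p
  rw [hX] at hxy
  have hy1 : y = 1 := by
    rcases (Nat.dvd_prime hp).1 (Dvd.intro_left _ hxy) with h | h
    · exact h
    · rw [h, Nat.coprime_self] at hy
      exact absurd hy hp.ne_one
  subst hy1
  rw [mul_one] at hxy
  subst hxy
  refine hle.trans ?_
  rw [ps_self hp]; norm_num

/-- Nilpotent permutation groups of degree `n` have order at most `H n`. -/
theorem nilp_bound (n : ℕ) : ∀ (G X : Type) [Group G] [Finite G] [Finite X] [MulAction G X]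
    [FaithfulSMul G X], Group.IsNilpotent G → Nat.card X = n → Nat.card G ≤ H n := by
  induction n using Nat.strong_induction_on with
  | _ n ih =>
    intro G X _ _ _ _ _ hG hX
    by_cases hT : IsPretransitive G X
    · by_cases h1 : Nat.card G = 1
      · rw [h1]; exact H_pos n
      obtain ⟨x0⟩ : Nonempty X := by
        by_contra hne
        rw [not_nonempty_iff] at hne
        apply h1
        have : Subsingleton G := ⟨fun a b => FaithfulSMul.eq_of_smul_eq_smul (α := X) (fun x => hne.elim x)⟩
        exact Nat.card_of_subsingleton 1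
      have hf : Fact (2 : ℕ).Prime := ⟨Nat.prime_two⟩
      obtain ⟨P, Q, hP, hQ, hcard, fP, fQ, hxy⟩ := trans_decomp hG 2 x0
      have hPle := card_le_ps (X := orbit P x0) Nat.prime_two hP
      have hQn : Group.IsNilpotent Q := Subgroup.isNilpotent Q
      have hQodd : Nat.card Q % 2 = 1 := by
        have := Nat.odd_iff.1 (Nat.coprime_two_right.1 hQ)
        exact this
      have h4 := odd_bound _ Q (orbit Q x0) hQn hQodd rfl
      have hy := odd_of_dvd hQodd (card_orbit_dvd (G := Q) x0)
      obtain ⟨k, hk⟩ := hP.card_orbit x0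
      rcases Nat.eq_zero_or_pos k with hk0 | hk0
      · rw [hk0, pow_zero] at hk
        rw [hk, one_mul] at hxy
        have hP1 : Nat.card P = 1 := by
          rw [hk] at hPle
          have : ps 2 1 = 1 := by simp [ps]
          rw [this] at hPle
          have : 0 < Nat.card P := Nat.card_pos
          omega
        rw [hP1, one_mul] at hcard
        rw [hxy, hX] at h4
        rw [hcard] at h4 hQodd
        rw [hxy, hX] at hy
        rcases eq_or_ne n 5 with rfl | h5
        · rw [H_five]
          exact (odd_prime_degree (X := X) hG hQodd (by norm_num) hX).trans (by norm_num)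
        rcases eq_or_ne n 7 with rfl | h7
        · rw [H_seven]
          exact (odd_prime_degree (X := X) hG hQodd (by norm_num) hX).trans (by norm_num)
        exact le_H_of_odd hy h5 h7 h4
      · rw [← hcard, ← hX, ← hxy]
        refine mul_le_H ?_ ?_ hy hPle h4
        · rw [hk]; exact dvd_pow_self 2 (by omega)
        · rw [hk]; positivity
    · obtain ⟨S, hS1, hS2⟩ := exists_invariant hT
      have h1 := card_le_mul_of_invariant S
      have h2 := card_add_compl S
      have h3 := ih (Nat.card S) (by omega) (toPermHom G S).range S (range_nilpotent hG) rfl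
      have h4 := ih (Nat.card (Sᶜ : SubMulAction G X)) (by omega)
        (toPermHom G (Sᶜ : SubMulAction G X)).range (Sᶜ : SubMulAction G X) (range_nilpotent hG) rfl
      refine h1.trans ((Nat.mul_le_mul h3 h4).trans ?_)
      rw [← hX, ← h2]
      exact H_mul_le _ _

/-- Nilpotent groups of odd order: `2|G| ≤ H n`, outside small degrees. -/
theorem two_mul_odd_le {G X : Type} [Group G] [Finite G] [Finite X] [MulAction G X]
    [FaithfulSMul G X] (hG : Group.IsNilpotent G) (hodd : Nat.card G % 2 = 1)
    {n : ℕ} (hX : Nat.card X = n) (h0 : n ≠ 0) (h1 : n ≠ 1) (h3 : n ≠ 3) (h5 : n ≠ 5) (h6 : n ≠ 6)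
    (h9 : n ≠ 9) : 2 * Nat.card G ≤ H n := by
  have hb := odd_bound n G X hG hodd hX
  rcases Nat.mod_two_eq_zero_or_one n with hn | hn
  · exact two_mul_le_H_even h0 hn h6 hb
  rcases Nat.lt_or_ge n 17 with h17 | h17
  · have key : n = 7 ∨ n = 11 ∨ n = 13 ∨ n = 15 := by omega
    by_cases hT : IsPretransitive G X
    · rcases key with rfl | rfl | rfl | rfl
      · have := odd_prime_degree (X := X) hG hodd (by norm_num) hX
        rw [H_seven]; omega
      · have := odd_prime_degree (X := X) hG hodd (by norm_num) hX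
        rw [H_eleven]; omega
      · have := odd_prime_degree (X := X) hG hodd (by norm_num) hX
        rw [H_thirteen]; omega
      · have hf : Fact (3 : ℕ).Prime := ⟨Nat.prime_three⟩
        have hne : Nonempty X := by
          by_contra hne
          rw [not_nonempty_iff] at hne
          rw [Nat.card_of_isEmpty] at hX
          omega
        obtain ⟨x, y, k, hxy, hx, hy, hle⟩ := odd_bound_trans (X := X) hG hodd 3
        rw [hX] at hxy
        have hk : k = 1 := by
          rcases Nat.lt_or_ge k 2 with hk | hk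
          · interval_cases k
            · exfalso
              rw [pow_zero] at hx
              rw [hx, one_mul] at hxy
              rw [hxy] at hy
              revert hy; decide
            · rfl
          · exfalso
            have h9 : 3 ^ 2 ∣ 3 ^ k := pow_dvd_pow 3 hk
            rw [← hx] at h9
            have := h9.trans (Dvd.intro _ hxy)
            revert this; decide
        subst hk
        rw [pow_one] at hx
        subst hx
        have hy5 : y = 5 := by omega
        subst hy5
        rw [ps_self Nat.prime_three] at hle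
        rw [H_fifteen]
        norm_num at hle
        omega
    · have hb2 := odd_bound_intrans (X := X) hG hodd hT
      rw [hX] at hb2
      rcases key with rfl | rfl | rfl | rfl
      · rw [H_seven]; norm_num at hb2; omega
      · rw [H_eleven]; norm_num at hb2; omega
      · rw [H_thirteen]; norm_num at hb2; omega
      · rw [H_fifteen]; norm_num at hb2; omega
  · exact two_mul_le_H_odd hn h17 hb

end Cfsg.Agent.H38.NilPerm
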