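import Mathlib
import Cfsg.Agent.H38.NilPerm

/-! A nilpotent subgroup of `S_n` of even order lies in a nilpotent subgroup containing an odd
permutation. -/

set_option autoImplicit false

namespace Cfsg.Agent.H38.NilHat

open MulAction Equiv
open Cfsg.Agent.H38.NilNum Cfsg.Agent.H38.NilPerm

theorem inv_app {α : Type*} (g : Perm α) (y : α) : g⁻¹ (g y) = y := Equiv.symm_apply_apply g y

theorem app_inv {α : Type*} (g : Perm α) (y : α) : g (g⁻¹ y) = y := Equiv.apply_symm_apply g y

variable {α : Type*} [Fintype α] [DecidableEq α]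

/-- sign of an involution whose support has `2m` points. -/
theorem sign_involution {τ : Perm α} (h2 : τ * τ = 1) {m : ℕ} (hm : τ.support.card = 2 * m) :
    Perm.sign τ = (-1) ^ m := by
  rcases eq_or_ne τ 1 with rfl | h1
  · simp only [Perm.support_one, Finset.card_empty] at hm
    have : m = 0 := by omega
    subst this; simp
  have ho : orderOf τ = 2 := orderOf_eq_prime (by rw [pow_two, h2]) h1
  obtain ⟨n, hn⟩ := Perm.cycleType_prime_order (σ := τ) (by rw [ho]; exact Nat.prime_two)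
  rw [ho] at hn
  have hs : τ.support.card = (n + 1) * 2 := by
    rw [← Perm.sum_cycleType, hn, Multiset.sum_replicate, smul_eq_mul]
  have hmn : m = n + 1 := by omega
  rw [Perm.sign_of_cycleType, hn, hmn]
  simp only [Multiset.sum_replicate, Multiset.card_replicate, smul_eq_mul]
  rw [pow_add, mul_comm (n + 1) 2, pow_mul]; simp

theorem exists_odd_centralizing (Q : Subgroup (Perm α)) (hQ : Nat.card Q % 2 = 1) {g : Perm α}
    (hg1 : g ≠ 1) {k : ℕ} (hg2 : g ^ (2 ^ k) = 1) (hc : ∀ q ∈ Q, q * g = g * q) :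
    ∃ τ : Perm α, (∀ q ∈ Q, q * τ = τ * q) ∧ Perm.sign τ = -1 := by
  classical
  have hcx : ∀ q ∈ Q, ∀ y, q (g y) = g (q y) := fun q hq y => by
    rw [← Perm.mul_apply, hc q hq, Perm.mul_apply]
  obtain ⟨x, hx⟩ : ∃ x, g x ∉ orbit Q x := by
    by_contra hall
    push Not at hall
    apply hg1
    have h1 : g ^ Nat.card Q = 1 := by
      ext x
      obtain ⟨⟨q, hq⟩, hqx⟩ := hall x
      have hqx' : q x = g x := hqx
      have h2 : ∀ m : ℕ, (g ^ m) x = (q ^ m) x := by
        intro m
        induction m with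
        | zero => rfl
        | succ m ih =>
          rw [_root_.pow_succ', Perm.mul_apply, ih, _root_.pow_succ, Perm.mul_apply, hqx',
            hcx _ (Q.pow_mem hq m)]
      have h3 : q ^ Nat.card Q = 1 := by
        have := pow_card_eq_one' (x := (⟨q, hq⟩ : Q))
        exact congrArg Subtype.val this
      rw [h2, h3]
    have h4 : (2 ^ k).Coprime (Nat.card Q) := by
      apply Nat.Coprime.pow_left
      rw [Nat.coprime_two_left]
      exact Nat.odd_iff.2 hQ
    have h5 := orderOf_dvd_of_pow_eq_one h1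
    have h6 := orderOf_dvd_of_pow_eq_one hg2
    rw [← orderOf_eq_one_iff]
    exact Nat.Coprime.eq_one_of_dvd (h4.symm.coprime_dvd_left h5) h6
  set S1 : Set α := orbit Q x with hS1
  set S2 : Set α := orbit Q (g x) with hS2
  have m12 : ∀ y, y ∈ S1 → g y ∈ S2 := by
    rintro _ ⟨⟨q, hq⟩, rfl⟩
    refine ⟨⟨q, hq⟩, ?_⟩
    exact hcx q hq x
  have m21 : ∀ y, y ∈ S2 → g⁻¹ y ∈ S1 := by
    rintro _ ⟨⟨q, hq⟩, rfl⟩
    refine ⟨⟨q, hq⟩, ?_⟩
    show q x = g⁻¹ (q (g x))
    rw [Perm.eq_inv_iff_eq, hcx q hq]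
  have mq1 : ∀ q ∈ Q, ∀ y, q y ∈ S1 ↔ y ∈ S1 := fun q hq y => by
    constructor
    · intro h
      have := mem_orbit_of_mem_orbit (⟨q, hq⟩⁻¹ : Q) h
      have h2 : (⟨q, hq⟩⁻¹ : Q) • (q y) = y := by
        show q⁻¹ (q y) = y
        exact inv_app q y
      rwa [h2] at this
    · intro h
      exact mem_orbit_of_mem_orbit (⟨q, hq⟩ : Q) h
  have mq2 : ∀ q ∈ Q, ∀ y, q y ∈ S2 ↔ y ∈ S2 := fun q hq y => by
    constructor
    · intro h
      have := mem_orbit_of_mem_orbit (⟨q, hq⟩⁻¹ : Q) h
      have h2 : (⟨q, hq⟩⁻¹ : Q) • (q y) = y := by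
        show q⁻¹ (q y) = y
        exact inv_app q y
      rwa [h2] at this
    · intro h
      exact mem_orbit_of_mem_orbit (⟨q, hq⟩ : Q) h
  have hdisj : ∀ y, y ∈ S1 → y ∉ S2 := by
    intro y h1 h2
    apply hx
    obtain ⟨⟨q, hq⟩, hqy⟩ := h2
    have hqy' : q (g x) = y := hqy
    rw [← hqy', mq1 q hq] at h1
    exact h1
  let f : α → α := fun y => if y ∈ S1 then g y else if y ∈ S2 then g⁻¹ y else y
  have f1 : ∀ y, y ∈ S1 → f y = g y := fun y h => if_pos h
  have f2 : ∀ y, y ∈ S2 → f y = g⁻¹ y := fun y h => by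
    have h1 : y ∉ S1 := fun h1 => hdisj y h1 h
    show (if y ∈ S1 then g y else if y ∈ S2 then g⁻¹ y else y) = _
    rw [if_neg h1, if_pos h]
  have f3 : ∀ y, y ∉ S1 → y ∉ S2 → f y = y := fun y h1 h2 => by
    show (if y ∈ S1 then g y else if y ∈ S2 then g⁻¹ y else y) = _
    rw [if_neg h1, if_neg h2]
  have hinv : Function.Involutive f := by
    intro y
    by_cases h1 : y ∈ S1
    · rw [f1 y h1, f2 _ (m12 y h1), inv_app]
    · by_cases h2 : y ∈ S2
      · rw [f2 y h2, f1 _ (m21 y h2), app_inv]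
      · rw [f3 y h1 h2, f3 y h1 h2]
  have hginv : ∀ q ∈ Q, ∀ y, q (g⁻¹ y) = g⁻¹ (q y) := fun q hq y => by
    rw [Perm.eq_inv_iff_eq, ← hcx q hq, app_inv]
  refine ⟨hinv.toPerm, ?_, ?_⟩
  · intro q hq
    ext y
    show q (f y) = f (q y)
    by_cases h1 : y ∈ S1
    · rw [f1 y h1, f1 _ ((mq1 q hq y).2 h1), hcx q hq]
    · by_cases h2 : y ∈ S2
      · rw [f2 y h2, f2 _ ((mq2 q hq y).2 h2), hginv q hq]
      · rw [f3 y h1 h2, f3 _ (fun h => h1 ((mq1 q hq y).1 h)) (fun h => h2 ((mq2 q hq y).1 h))]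
  · have hsupp : (hinv.toPerm.support : Set α) = S1 ∪ S2 := by
      ext y
      rw [Finset.mem_coe, Perm.mem_support]
      show f y ≠ y ↔ y ∈ S1 ∪ S2
      constructor
      · intro h
        by_contra hn
        rw [Set.mem_union, not_or] at hn
        exact h (f3 y hn.1 hn.2)
      · rintro (h | h)
        · rw [f1 y h]
          intro he
          have := m12 y h
          rw [he] at this
          exact hdisj y h this
        · rw [f2 y h]
          intro he
          have := m21 y h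
          rw [he] at this
          exact hdisj y this h
    have hS2eq : S2 = g '' S1 := by
      ext y
      constructor
      · intro h
        exact ⟨g⁻¹ y, m21 y h, app_inv g y⟩
      · rintro ⟨z, hz, rfl⟩
        exact m12 z hz
    have hcard : hinv.toPerm.support.card = 2 * S1.ncard := by
      rw [← Set.ncard_coe_finset, hsupp, Set.ncard_union_eq (Set.disjoint_left.2 hdisj)
        (Set.toFinite _) (Set.toFinite _), hS2eq, Set.ncard_image_of_injective _ g.injective]
      ring
    have hodd : S1.ncard % 2 = 1 := odd_of_dvd hQ (card_orbit_dvd (G := Q) x)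
    rw [sign_involution (m := S1.ncard) ?_ hcard]
    · exact Odd.neg_one_pow (Nat.odd_iff.2 hodd)
    · ext y
      exact hinv y

/-- The product of two commuting nilpotent subgroups is nilpotent. -/
theorem nilpotent_sup {G : Type*} [Group G] {A B : Subgroup G} (hA : Group.IsNilpotent A)
    (hB : Group.IsNilpotent B) (hc : ∀ a ∈ A, ∀ b ∈ B, a * b = b * a) : Group.IsNilpotent (A ⊔ B : Subgroup G) := by
  let f : A × B →* G := MonoidHom.noncommCoprod A.subtype B.subtype (fun a b => hc a a.2 b b.2)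
  have hf : f.range = A ⊔ B := by
    have h := MonoidHom.noncommCoprod_range A.subtype B.subtype (fun a b => hc a a.2 b b.2)
    rw [Subgroup.range_subtype, Subgroup.range_subtype] at h
    exact h
  rw [← hf]
  exact Group.nilpotent_of_surjective f.rangeRestrict f.rangeRestrict_surjective

theorem nilpotent_map {G H : Type*} [Group G] [Group H] {A : Subgroup G} (hA : Group.IsNilpotent A)
    (f : G →* H) : Group.IsNilpotent (A.map f) := by
  have h : (f.comp A.subtype).range = A.map f := by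
    rw [MonoidHom.range_comp, Subgroup.range_subtype]
  rw [← h]
  exact Group.nilpotent_of_surjective (f.comp A.subtype).rangeRestrict
    (f.comp A.subtype).rangeRestrict_surjective

/-- A nilpotent group of permutations of even order lies in a nilpotent group of permutations with an
odd permutation. -/
theorem exists_hat (N : Subgroup (Perm α)) (hN : Group.IsNilpotent N) (h2 : 2 ∣ Nat.card N) :
    ∃ M : Subgroup (Perm α), N ≤ M ∧ Group.IsNilpotent M ∧ ∃ g ∈ M, Perm.sign g = -1 := by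
  have hf : Fact (2 : ℕ).Prime := ⟨Nat.prime_two⟩
  obtain ⟨P0, Q0, hP, hQ, hcard, hc, hg⟩ := exists_decomp hN 2
  set P : Subgroup (Perm α) := P0.map N.subtype with hPdef
  set Q : Subgroup (Perm α) := Q0.map N.subtype with hQdef
  have hPQ : ∀ x ∈ P, ∀ y ∈ Q, x * y = y * x := by
    rintro _ ⟨x, hx, rfl⟩ _ ⟨y, hy, rfl⟩
    exact congrArg Subtype.val (hc x hx y hy)
  have hQodd : Nat.card Q % 2 = 1 := by
    rw [hQdef, Subgroup.card_map_of_injective N.subtype_injective]
    exact Nat.odd_iff.1 (Nat.coprime_two_right.1 hQ)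
  have hQnil : Group.IsNilpotent Q := nilpotent_map (Subgroup.isNilpotent Q0) _
  have hP2 : 2 ∣ Nat.card P0 := by
    rw [← hcard] at h2
    rcases Nat.prime_two.dvd_mul.1 h2 with h | h
    · exact h
    · exfalso
      have := Nat.Coprime.eq_one_of_dvd hQ.symm h
      omega
  obtain ⟨g0, hg0⟩ := exists_prime_orderOf_dvd_card' (G := P0) 2 hP2
  set C : Subgroup (Perm α) := Subgroup.centralizer (Q : Set (Perm α)) with hC
  have hPC : P ≤ C := by
    intro x hx
    rw [hC, Subgroup.mem_centralizer_iff]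
    intro y hy
    exact (hPQ x hx y hy).symm
  obtain ⟨τ, hτ1, hτ2⟩ : ∃ τ : Perm α, (∀ q ∈ Q, q * τ = τ * q) ∧ Perm.sign τ = -1 := by
    apply exists_odd_centralizing Q hQodd (g := ((g0 : N) : Perm α)) (k := 1)
    · intro h
      have h1 : g0 = 1 := Subtype.ext (Subtype.ext h)
      rw [h1, orderOf_one] at hg0
      omega
    · have h1 : g0 ^ 2 = 1 := by rw [← hg0, pow_orderOf_eq_one]
      rw [pow_one]
      exact congrArg (fun z : P0 => ((z : N) : Perm α)) h1
    · intro q hq
      exact (hPQ _ ⟨g0, g0.2, rfl⟩ q hq).symm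
  have hPp : IsPGroup 2 (P.subgroupOf C) := by
    have h1 : IsPGroup 2 P := hP.map N.subtype
    exact h1.comap_subtype
  obtain ⟨S, hS⟩ := hPp.exists_le_sylow
  have hodd : ∃ s : C, s ∈ S ∧ Perm.sign (s : Perm α) = -1 := by
    by_contra hno
    push Not at hno
    let φ : C →* ℤˣ := Perm.sign.comp C.subtype
    have h1 : (S : Subgroup C) ≤ φ.ker := by
      intro s hs
      rw [MonoidHom.mem_ker]
      rcases Int.units_eq_one_or (φ s) with h | h
      · exact h
      · exact absurd h (hno s hs)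
    have h3 : φ.ker.index ∣ 2 := by
      rw [Subgroup.index_ker]
      have := Subgroup.card_subgroup_dvd_card φ.range
      simpa using this
    have h4 : φ.ker.index = 1 := by
      rcases (Nat.dvd_prime Nat.prime_two).1 h3 with h | h
      · exact h
      · exfalso
        have h5 := Subgroup.index_dvd_of_le h1
        rw [h] at h5
        exact S.not_dvd_index h5
    rw [Subgroup.index_eq_one] at h4
    have h5 : (⟨τ, by rw [hC, Subgroup.mem_centralizer_iff]; exact hτ1⟩ : C) ∈ φ.ker := by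
      rw [h4]; trivial
    rw [MonoidHom.mem_ker] at h5
    have h6 : Perm.sign τ = 1 := h5
    rw [hτ2] at h6
    exact absurd h6 (by decide)
  set S' : Subgroup (Perm α) := (S : Subgroup C).map C.subtype with hS'
  have hS'Q : ∀ x ∈ S', ∀ y ∈ Q, x * y = y * x := by
    rintro _ ⟨x, hx, rfl⟩ y hy
    exact ((Subgroup.mem_centralizer_iff.1 x.2) y hy).symm
  have hPS' : P ≤ S' := by
    intro x hx
    exact ⟨⟨x, hPC hx⟩, hS hx, rfl⟩
  refine ⟨S' ⊔ Q, ?_, nilpotent_sup ?_ hQnil hS'Q, ?_⟩
  · intro n hn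
    obtain ⟨x, hx, y, hy, hxy⟩ := hg ⟨n, hn⟩
    have h1 : n = (x : Perm α) * (y : Perm α) := congrArg Subtype.val hxy
    rw [h1]
    exact Subgroup.mul_mem_sup (hPS' ⟨x, hx, rfl⟩) ⟨y, hy, rfl⟩
  · exact (IsPGroup.isNilpotent (p := 2) (S.isPGroup'.map C.subtype))
  · obtain ⟨s, hs, hsg⟩ := hodd
    exact ⟨s, Subgroup.mem_sup_left ⟨s, hs, rfl⟩, hsg⟩

theorem two_mul_card_le_of_lt {G : Type*} [Group G] [Finite G] {A B : Subgroup G} (h : A < B) :
    2 * Nat.card A ≤ Nat.card B := by
  obtain ⟨c, hc⟩ := Subgroup.card_dvd_of_le h.le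
  have h1 : Nat.card B ≠ Nat.card A := by
    intro he
    exact h.ne (Subgroup.eq_of_le_of_card_ge h.le he.le)
  have h2 : 0 < Nat.card B := Nat.card_pos
  have h3 : c ≠ 0 := by rintro rfl; omega
  have h4 : c ≠ 1 := by rintro rfl; rw [mul_one] at hc; exact h1 hc
  have h5 : 2 ≤ c := by omega
  rw [hc, mul_comm]
  exact Nat.mul_le_mul_left _ h5

/-- Nilpotent groups of even permutations: `2|N| ≤ H n`. -/
theorem alt_bound {n : ℕ} (N : Subgroup (Perm (Fin n))) (hN : Group.IsNilpotent N)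
    (heven : ∀ g ∈ N, Perm.sign g = 1) (h0 : n ≠ 0) (h1 : n ≠ 1) (h3 : n ≠ 3) (h5 : n ≠ 5)
    (h6 : n ≠ 6) (h9 : n ≠ 9) : 2 * Nat.card N ≤ H n := by
  by_cases h2 : 2 ∣ Nat.card N
  · obtain ⟨M, hNM, hM, g, hg, hs⟩ := exists_hat N hN h2
    have hlt : N < M := by
      refine lt_of_le_of_ne hNM ?_
      rintro rfl
      rw [heven g hg] at hs
      exact absurd hs (by decide)
    exact (two_mul_card_le_of_lt hlt).trans (nilp_bound n M (Fin n) hM (Nat.card_fin n))
  · exact two_mul_odd_le (X := Fin n) hN (by omega) (Nat.card_fin n) h0 h1 h3 h5 h6 h9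

theorem card_sylow_alt {n : ℕ} (hn : 2 ≤ n) (P : Sylow 2 (alternatingGroup (Fin n))) :
    2 * Nat.card P = ps 2 n := by
  have hf : Fact (2 : ℕ).Prime := ⟨Nat.prime_two⟩
  have hnt : Nontrivial (Fin n) := Fin.nontrivial_iff_two_le.2 hn
  have h1 : 2 * Nat.card (alternatingGroup (Fin n)) = n.factorial := by
    rw [two_mul_nat_card_alternatingGroup, Nat.card_perm, Nat.card_fin]
  have h2 : Nat.card (alternatingGroup (Fin n)) ≠ 0 := Nat.card_pos.ne'
  rw [P.card_eq_multiplicity]
  unfold ps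
  rw [← h1, Nat.factorization_mul (by norm_num) h2, Finsupp.add_apply, Nat.Prime.factorization_self Nat.prime_two,
    pow_add, pow_one]

theorem card_map_alt {n : ℕ} (N : Subgroup (alternatingGroup (Fin n))) :
    Nat.card (N.map (alternatingGroup (Fin n)).subtype) = Nat.card N :=
  Subgroup.card_map_of_injective (alternatingGroup (Fin n)).subtype_injective

theorem alt_bound' {n : ℕ} (N : Subgroup (alternatingGroup (Fin n))) (hN : Group.IsNilpotent N)
    (h0 : n ≠ 0) (h1 : n ≠ 1) (h3 : n ≠ 3) (h5 : n ≠ 5)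
    (h6 : n ≠ 6) (h9 : n ≠ 9) : 2 * Nat.card N ≤ H n := by
  rw [← card_map_alt]
  refine alt_bound _ (nilpotent_map hN _) ?_ h0 h1 h3 h5 h6 h9
  rintro _ ⟨g, hg, rfl⟩
  exact g.2

end Cfsg.Agent.H38.NilHat
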