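import Mathlib
import Cfsg.Agent.H38.NilHat

/-! Uniqueness and existence of the nilpotent subgroups of `S_n`, `n ≡ 3 mod 4`, of order
`3 · f2 (n-3)`. -/

set_option autoImplicit false

namespace Cfsg.Agent.H38.NilUniq

open MulAction Equiv
open Cfsg.Agent.H38.NilNum Cfsg.Agent.H38.NilPerm Cfsg.Agent.H38.NilHat

theorem F_eq_pow (k : ℕ) : F k = 2 ^ ((4 * k).factorial).factorization 2 := rfl

/-- Centralizer order of a permutation of cycle type `3^j`. -/
theorem card_centralizer_three {n j : ℕ} {z : Perm (Fin n)} (hz : z.cycleType = Multiset.replicate (j + 1) 3) :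
    Nat.card (Subgroup.centralizer {z}) = (n - (j + 1) * 3).factorial * 3 ^ (j + 1) * (j + 1).factorial := by
  rw [Perm.nat_card_centralizer, hz, Fintype.card_fin, Multiset.sum_replicate, Multiset.prod_replicate,
    Multiset.toFinset_replicate, if_neg (by omega), Finset.prod_singleton, Multiset.count_replicate_self,
    smul_eq_mul]

theorem structure_lemma {n k : ℕ} (hn : n = 4 * k + 3) (N : Subgroup (Perm (Fin n)))
    (hN : Group.IsNilpotent N) (hcard : Nat.card N = 3 * F k) :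
    ∃ (z : Perm (Fin n)) (P : Subgroup (Perm (Fin n))), z.cycleType = {3} ∧
      P ≤ Subgroup.centralizer {z} ∧ Nat.card P = F k ∧ N = P ⊔ Subgroup.zpowers z := by
  have hf : Fact (2 : ℕ).Prime := ⟨Nat.prime_two⟩
  obtain ⟨P0, Q0, hP, hQ, hc, hcomm, hg⟩ := exists_decomp hN 2
  obtain ⟨a, ha⟩ := IsPGroup.iff_card.1 hP
  set e := ((4 * k).factorial).factorization 2 with he
  rw [hcard, F_eq_pow, ← he, ha] at hc
  have hQ3 : Nat.card Q0 ∣ 3 := by
    have h1 : Nat.card Q0 ∣ 3 * 2 ^ e := Dvd.intro_left _ hc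
    exact (Nat.Coprime.pow_right e hQ).dvd_of_dvd_mul_right h1
  have hQ3' : Nat.card Q0 = 3 := by
    rcases (Nat.dvd_prime Nat.prime_three).1 hQ3 with h | h
    · exfalso
      rw [h, mul_one] at hc
      have h3 : 3 ∣ 2 ^ a := by rw [hc]; exact Dvd.intro _ rfl
      have := Nat.prime_three.dvd_of_dvd_pow h3
      omega
    · exact h
  have hPF : Nat.card P0 = F k := by
    rw [hQ3', mul_comm] at hc
    rw [ha, F_eq_pow, ← he]
    exact Nat.eq_of_mul_eq_mul_left (by norm_num) hc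
  have hf3 : Fact (3 : ℕ).Prime := ⟨Nat.prime_three⟩
  obtain ⟨z0, hz0⟩ := exists_prime_orderOf_dvd_card' (G := Q0) 3 (by rw [hQ3'])
  set z : Perm (Fin n) := ((z0 : N) : Perm (Fin n)) with hz
  have hzo : orderOf z = 3 := by
    rw [hz, Subgroup.orderOf_coe, Subgroup.orderOf_coe, hz0]
  set P : Subgroup (Perm (Fin n)) := P0.map N.subtype with hPdef
  have hPcard : Nat.card P = F k := by
    rw [hPdef, Subgroup.card_map_of_injective N.subtype_injective, hPF]
  have hPC : P ≤ Subgroup.centralizer {z} := by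
    rintro _ ⟨x, hx, rfl⟩
    rw [Subgroup.mem_centralizer_singleton_iff]
    exact congrArg Subtype.val (hcomm x hx z0 z0.2)
  refine ⟨z, P, ?_, hPC, hPcard, ?_⟩
  · obtain ⟨j, hj⟩ := Perm.cycleType_prime_order (σ := z) (by rw [hzo]; exact Nat.prime_three)
    rw [hzo] at hj
    rcases Nat.eq_zero_or_pos j with rfl | hj0
    · rw [hj]; rfl
    · exfalso
      have h1 := Subgroup.card_dvd_of_le hPC
      rw [card_centralizer_three hj, hPcard] at h1
      have hsupp : (j + 1) * 3 ≤ n := by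
        have h2 : z.support.card ≤ n := by
          have := Finset.card_le_univ z.support
          rwa [Fintype.card_fin] at this
        rwa [← Perm.sum_cycleType, hj, Multiset.sum_replicate, smul_eq_mul] at h2
      have h2 : F k ∣ (n - (j + 1) * 3).factorial * (j + 1).factorial := by
        have h3 : (F k).Coprime (3 ^ (j + 1)) := by
          rw [F_eq_pow]
          exact Nat.Coprime.pow _ _ (by norm_num)
        rw [mul_assoc, mul_comm (3 ^ (j + 1)), ← mul_assoc] at h1
        exact h3.dvd_of_dvd_mul_right h1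
      have h4 : F k ∣ (4 * k - 1).factorial := by
        refine h2.trans ((Nat.factorial_mul_factorial_dvd_factorial_add _ _).trans
          (Nat.factorial_dvd_factorial ?_))
        omega
      rw [F_eq_pow] at h4
      have h5 : 2 ^ e ≤ ps 2 (4 * k - 1) := by
        unfold ps
        apply Nat.pow_le_pow_right (by norm_num)
        exact (Nat.prime_two.pow_dvd_iff_le_factorization (Nat.factorial_ne_zero _)).1 h4
      have hk : 1 ≤ k := by omega
      have h6 : ps 2 (4 * k) = F k := rfl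
      obtain ⟨l, rfl⟩ : ∃ l, k = l + 1 := ⟨k - 1, by omega⟩
      have h7 : 4 * (l + 1) - 1 = 4 * l + 3 := by omega
      rw [h7, f_three, he, ← F_eq_pow] at h5
      have := F_succ_ge l
      have := F_pos l
      omega
  · apply le_antisymm
    · intro x hx
      obtain ⟨u, hu, v, hv, huv⟩ := hg ⟨x, hx⟩
      have h1 : x = (u : Perm (Fin n)) * (v : Perm (Fin n)) := congrArg Subtype.val huv
      rw [h1]
      refine Subgroup.mul_mem_sup ⟨u, hu, rfl⟩ ?_
      have h2 : (⟨v, hv⟩ : Q0) ∈ Subgroup.zpowers z0 := by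
        have h3 : Subgroup.zpowers z0 = ⊤ := by
          apply Subgroup.eq_top_of_card_eq
          rw [Nat.card_zpowers, hz0, hQ3']
        rw [h3]; trivial
      obtain ⟨i, hi⟩ := Subgroup.mem_zpowers_iff.1 h2
      rw [Subgroup.mem_zpowers_iff]
      refine ⟨i, ?_⟩
      exact congrArg (fun w : Q0 => ((w : N) : Perm (Fin n))) hi
    · refine sup_le ?_ ?_
      · rintro _ ⟨x, hx, rfl⟩
        exact x.2
      · rw [Subgroup.zpowers_le]
        exact (z0 : N).2

theorem map_conj_zpowers {G : Type*} [Group G] (g z : G) :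
    (Subgroup.zpowers z).map (MulAut.conj g).toMonoidHom = Subgroup.zpowers (g * z * g⁻¹) := by
  rw [MonoidHom.map_zpowers]
  rfl

theorem conj_lemma {n k : ℕ} (hn : n = 4 * k + 3) (N₁ N₂ : Subgroup (Perm (Fin n)))
    (hN₁ : Group.IsNilpotent N₁) (hN₂ : Group.IsNilpotent N₂) (hc₁ : Nat.card N₁ = 3 * F k)
    (hc₂ : Nat.card N₂ = 3 * F k) : ∃ g : Perm (Fin n), N₂ = N₁.map (MulAut.conj g).toMonoidHom := by
  have hf : Fact (2 : ℕ).Prime := ⟨Nat.prime_two⟩
  obtain ⟨z₁, P₁, hz₁, hP₁, hp₁, rfl⟩ := structure_lemma hn N₁ hN₁ hc₁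
  obtain ⟨z₂, P₂, hz₂, hP₂, hp₂, rfl⟩ := structure_lemma hn N₂ hN₂ hc₂
  obtain ⟨g, hg⟩ := isConj_iff.1 (Perm.isConj_iff_cycleType_eq.2 (hz₁.trans hz₂.symm))
  set C := Subgroup.centralizer {z₂} with hC
  have hCcard : Nat.card C = (4 * k).factorial * 3 := by
    have := card_centralizer_three (j := 0) (z := z₂) (by rw [hz₂]; rfl)
    rw [this, hn]; simp
  have hfac : 2 ^ (Nat.card C).factorization 2 = F k := by
    rw [hCcard, Nat.factorization_mul (Nat.factorial_ne_zero _) (by norm_num), Finsupp.add_apply,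
      Nat.factorization_eq_zero_of_not_dvd (show ¬ 2 ∣ 3 by norm_num), add_zero]
    rfl
  set P₁' := P₁.map (MulAut.conj g).toMonoidHom with hP₁'
  have hP₁'C : P₁' ≤ C := by
    rintro _ ⟨x, hx, rfl⟩
    have h1 := hP₁ hx
    rw [Subgroup.mem_centralizer_singleton_iff] at h1 ⊢
    show (g * x * g⁻¹) * z₂ = z₂ * (g * x * g⁻¹)
    rw [← hg]
    calc g * x * g⁻¹ * (g * z₁ * g⁻¹) = g * (x * z₁) * g⁻¹ := by group
      _ = g * (z₁ * x) * g⁻¹ := by rw [h1]
      _ = _ := by group
  have hP₁'card : Nat.card P₁' = F k := by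
    rw [hP₁', Subgroup.card_map_of_injective (MulAut.conj g).injective, hp₁]
  have hs₁ : Nat.card (P₁'.subgroupOf C) = 2 ^ (Nat.card C).factorization 2 := by
    rw [hfac, ← hP₁'card]
    exact Nat.card_congr (Subgroup.subgroupOfEquivOfLe hP₁'C).toEquiv
  have hs₂ : Nat.card (P₂.subgroupOf C) = 2 ^ (Nat.card C).factorization 2 := by
    rw [hfac, ← hp₂]
    exact Nat.card_congr (Subgroup.subgroupOfEquivOfLe hP₂).toEquiv
  obtain ⟨h, hh⟩ := MulAction.exists_smul_eq C (Sylow.ofCard _ hs₁) (Sylow.ofCard _ hs₂)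
  have hh2 : (P₁'.subgroupOf C).map (MulAut.conj h).toMonoidHom = P₂.subgroupOf C := by
    have := congrArg (fun S : Sylow 2 C => (S : Subgroup C)) hh
    exact this
  refine ⟨h * g, ?_⟩
  have hconj : (MulAut.conj ((h : Perm (Fin n)) * g)).toMonoidHom =
      (MulAut.conj (h : Perm (Fin n))).toMonoidHom.comp (MulAut.conj g).toMonoidHom := by
    ext x
    simp
  rw [hconj, ← Subgroup.map_map, Subgroup.map_sup, map_conj_zpowers, hg, Subgroup.map_sup, ← hP₁',
    map_conj_zpowers]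
  congr 1
  · have h1 := congrArg (Subgroup.map C.subtype) hh2
    rw [Subgroup.map_map, Subgroup.subgroupOf_map_subtype, inf_eq_left.2 hP₂] at h1
    have h2 : C.subtype.comp (MulAut.conj h).toMonoidHom =
        (MulAut.conj (h : Perm (Fin n))).toMonoidHom.comp C.subtype := by
      ext x; rfl
    rw [h2, ← Subgroup.map_map, Subgroup.subgroupOf_map_subtype, inf_eq_left.2 hP₁'C] at h1
    exact h1.symm
  · congr 1
    have := Subgroup.mem_centralizer_singleton_iff.1 h.2
    rw [this]; group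

/-- The embedding `S_m × S_3 → S_{m+3}`. -/
def emb (m : ℕ) : Perm (Fin m) × Perm (Fin 3) →* Perm (Fin (m + 3)) :=
  (finSumFinEquiv (m := m) (n := 3)).permCongrHom.toMonoidHom.comp (Perm.sumCongrHom (Fin m) (Fin 3))

theorem emb_injective (m : ℕ) : Function.Injective (emb m) :=
  (finSumFinEquiv (m := m) (n := 3)).permCongrHom.injective.comp Perm.sumCongrHom_injective

theorem sign_emb (m : ℕ) (x : Perm (Fin m) × Perm (Fin 3)) :
    Perm.sign (emb m x) = Perm.sign x.1 * Perm.sign x.2 := by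
  show Perm.sign ((finSumFinEquiv (m := m) (n := 3)).permCongr (Perm.sumCongr x.1 x.2)) = _
  rw [Perm.sign_permCongr, Perm.sign_sumCongr]

/-- The 3-cycle on `Fin 3`. -/
def c3 : Perm (Fin 3) := finRotate 3

theorem orderOf_c3 : orderOf c3 = 3 :=
  orderOf_eq_prime (by decide) (by decide)

theorem sign_c3 : Perm.sign c3 = 1 := by decide

theorem sign_zpowers (x : Subgroup.zpowers c3) : Perm.sign (x : Perm (Fin 3)) = 1 := by
  obtain ⟨i, hi⟩ := Subgroup.mem_zpowers_iff.1 x.2
  rw [← hi, map_zpow, sign_c3, one_zpow]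

theorem card_zpowers_c3 : Nat.card (Subgroup.zpowers c3) = 3 := by
  rw [Nat.card_zpowers, orderOf_c3]

theorem nonempty_equiv : Nonempty (Subgroup.zpowers c3 ≃* Multiplicative (ZMod 3)) := by
  have hf3 : Fact (3 : ℕ).Prime := ⟨Nat.prime_three⟩
  exact ⟨mulEquivOfPrimeCardEq (p := 3) card_zpowers_c3 (by simp)⟩

theorem zpowers_nilpotent : Group.IsNilpotent (Subgroup.zpowers c3) := by
  have hf3 : Fact (3 : ℕ).Prime := ⟨Nat.prime_three⟩
  exact (IsPGroup.of_card (p := 3) (n := 1) (by rw [card_zpowers_c3, pow_one])).isNilpotent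

theorem exists_of_hom {G : Type} {K : Type} [Group G] [Group K] [Finite K]
    (P : Subgroup K) (hP : Group.IsNilpotent P) (f : P × Subgroup.zpowers c3 →* G)
    (hf : Function.Injective f) :
    ∃ M : Subgroup G, Group.IsNilpotent M ∧ Nat.card M = 3 * Nat.card P ∧
      Nonempty (M ≃* (P × Multiplicative (ZMod 3))) := by
  have hz := zpowers_nilpotent
  have e := MonoidHom.ofInjective hf
  refine ⟨f.range, Group.nilpotent_of_mulEquiv e, ?_, ?_⟩
  · rw [← Nat.card_congr e.toEquiv, Nat.card_prod, card_zpowers_c3, mul_comm]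
  · obtain ⟨e2⟩ := nonempty_equiv
    exact ⟨e.symm.trans ((MulEquiv.refl P).prodCongr e2)⟩

theorem exists_sym (m : ℕ) (P : Sylow 2 (Perm (Fin m))) :
    ∃ M : Subgroup (Perm (Fin (m + 3))), Group.IsNilpotent M ∧ Nat.card M = 3 * Nat.card P ∧
      Nonempty (M ≃* (↥(P : Subgroup (Perm (Fin m))) × Multiplicative (ZMod 3))) := by
  have hf : Fact (2 : ℕ).Prime := ⟨Nat.prime_two⟩
  refine exists_of_hom (P : Subgroup (Perm (Fin m))) P.isPGroup'.isNilpotent
    ((emb m).comp (MonoidHom.prodMap (P : Subgroup (Perm (Fin m))).subtype (Subgroup.zpowers c3).subtype)) ?_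
  rintro ⟨a, b⟩ ⟨c, d⟩ h
  have h1 := emb_injective m h
  have h2 := congrArg Prod.fst h1
  have h3 := congrArg Prod.snd h1
  exact Prod.ext (Subtype.ext h2) (Subtype.ext h3)

theorem exists_alt (m : ℕ) (P : Sylow 2 (alternatingGroup (Fin m))) :
    ∃ M : Subgroup (alternatingGroup (Fin (m + 3))), Group.IsNilpotent M ∧ Nat.card M = 3 * Nat.card P ∧
      Nonempty (M ≃* (↥(P : Subgroup (alternatingGroup (Fin m))) × Multiplicative (ZMod 3))) := by
  have hf : Fact (2 : ℕ).Prime := ⟨Nat.prime_two⟩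
  refine exists_of_hom (P : Subgroup (alternatingGroup (Fin m))) P.isPGroup'.isNilpotent
    (((emb m).comp (MonoidHom.prodMap ((alternatingGroup (Fin m)).subtype.comp
      (P : Subgroup (alternatingGroup (Fin m))).subtype) (Subgroup.zpowers c3).subtype)).codRestrict
      (alternatingGroup (Fin (m + 3))) ?_) ?_
  · rintro ⟨a, b⟩
    rw [Perm.mem_alternatingGroup]
    show Perm.sign (emb m _) = 1
    rw [sign_emb]
    have h1 : Perm.sign ((a : alternatingGroup (Fin m)) : Perm (Fin m)) = 1 := (a : alternatingGroup (Fin m)).2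
    have h2 := sign_zpowers b
    show Perm.sign ((a : alternatingGroup (Fin m)) : Perm (Fin m)) * Perm.sign (b : Perm (Fin 3)) = 1
    rw [h1, h2, mul_one]
  · rintro ⟨a, b⟩ ⟨c, d⟩ h
    have h1 := emb_injective m (congrArg Subtype.val h)
    have h2 := congrArg Prod.fst h1
    have h3 := congrArg Prod.snd h1
    exact Prod.ext (Subtype.ext (Subtype.ext h2)) (Subtype.ext h3)

/-- Uniqueness in the alternating group. -/
theorem conj_alt {n k : ℕ} (hn : n = 4 * k + 3) (hk : 1 ≤ k) (N₁ N₂ : Subgroup (alternatingGroup (Fin n)))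
    (hN₁ : Group.IsNilpotent N₁) (hN₂ : Group.IsNilpotent N₂) (hc₁ : 2 * Nat.card N₁ = 3 * F k)
    (hc₂ : 2 * Nat.card N₂ = 3 * F k) :
    ∃ g : alternatingGroup (Fin n), N₂ = N₁.map (MulAut.conj g).toMonoidHom := by
  have key : ∀ N : Subgroup (alternatingGroup (Fin n)), Group.IsNilpotent N → 2 * Nat.card N = 3 * F k →
      ∃ M : Subgroup (Perm (Fin n)), Group.IsNilpotent M ∧ Nat.card M = 3 * F k ∧
        N.map (alternatingGroup (Fin n)).subtype = M ⊓ alternatingGroup (Fin n) ∧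
        ∃ g ∈ M, Perm.sign g = -1 := by
    intro N hN hc
    set N' := N.map (alternatingGroup (Fin n)).subtype with hN'
    have h1 : Nat.card N' = Nat.card N := card_map_alt N
    have h2 : 2 ∣ Nat.card N' := by
      rw [h1]
      obtain ⟨l, rfl⟩ : ∃ l, k = l + 1 := ⟨k - 1, by omega⟩
      rw [F_succ] at hc
      refine ⟨3 * 2 * F l * 2 ^ (l + 1).factorization 2, ?_⟩
      apply Nat.eq_of_mul_eq_mul_left (show 0 < 2 by norm_num)
      rw [hc]; ring
    obtain ⟨M, hNM, hM, g, hg, hs⟩ := exists_hat N' (nilpotent_map hN _) h2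
    have h3 : N' ≤ M ⊓ alternatingGroup (Fin n) := by
      refine le_inf hNM ?_
      rintro _ ⟨x, hx, rfl⟩
      exact x.2
    have h4 : M ⊓ alternatingGroup (Fin n) < M := by
      refine lt_of_le_of_ne inf_le_left ?_
      intro he
      have : g ∈ M ⊓ alternatingGroup (Fin n) := by rw [he]; exact hg
      have h5 : Perm.sign g = 1 := Perm.mem_alternatingGroup.1 this.2
      rw [hs] at h5
      exact absurd h5 (by decide)
    have h5 := two_mul_card_le_of_lt h4
    have h6 := nilp_bound n M (Fin n) hM (Nat.card_fin n)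
    have h7 : H n = 3 * F k := by rw [hn, H_three]
    have h8 := Nat.le_of_dvd Nat.card_pos (Subgroup.card_dvd_of_le h3)
    refine ⟨M, hM, by omega, ?_, g, hg, hs⟩
    exact Subgroup.eq_of_le_of_card_ge h3 (by omega)
  obtain ⟨M₁, hM₁, hm₁, he₁, g₁, hg₁, hs₁⟩ := key N₁ hN₁ hc₁
  obtain ⟨M₂, hM₂, hm₂, he₂, g₂, hg₂, hs₂⟩ := key N₂ hN₂ hc₂
  obtain ⟨g, hg⟩ := conj_lemma hn M₁ M₂ hM₁ hM₂ hm₁ hm₂
  obtain ⟨g', hg', hsg'⟩ : ∃ g' : Perm (Fin n), M₂ = M₁.map (MulAut.conj g').toMonoidHom ∧ Perm.sign g' = 1 := by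
    rcases Int.units_eq_one_or (Perm.sign g) with h | h
    · exact ⟨g, hg, h⟩
    · refine ⟨g * g₁, ?_, ?_⟩
      · have h1 : M₁.map (MulAut.conj g₁).toMonoidHom = M₁ := by
          ext x
          constructor
          · rintro ⟨y, hy, rfl⟩
            exact M₁.mul_mem (M₁.mul_mem hg₁ hy) (M₁.inv_mem hg₁)
          · intro hx
            refine ⟨g₁⁻¹ * x * g₁, M₁.mul_mem (M₁.mul_mem (M₁.inv_mem hg₁) hx) hg₁, ?_⟩
            show g₁ * (g₁⁻¹ * x * g₁) * g₁⁻¹ = x
            group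
        have h2 : (MulAut.conj (g * g₁)).toMonoidHom =
            (MulAut.conj g).toMonoidHom.comp (MulAut.conj g₁).toMonoidHom := by
          ext x
          simp
        rw [h2, ← Subgroup.map_map, h1, hg]
      · rw [map_mul, h, hs₁]; decide
  refine ⟨⟨g', Perm.mem_alternatingGroup.2 hsg'⟩, ?_⟩
  apply Subgroup.map_injective (alternatingGroup (Fin n)).subtype_injective
  rw [he₂, Subgroup.map_map]
  have h2 : (alternatingGroup (Fin n)).subtype.comp
      (MulAut.conj (⟨g', Perm.mem_alternatingGroup.2 hsg'⟩ : alternatingGroup (Fin n))).toMonoidHom =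
      (MulAut.conj g').toMonoidHom.comp (alternatingGroup (Fin n)).subtype := by
    ext x; rfl
  rw [h2, ← Subgroup.map_map, he₁, hg']
  ext x
  rw [Subgroup.mem_inf, Subgroup.mem_map, Subgroup.mem_map]
  constructor
  · rintro ⟨⟨y, hy, rfl⟩, hx⟩
    refine ⟨y, Subgroup.mem_inf.2 ⟨hy, ?_⟩, rfl⟩
    have h3 : Perm.sign (g' * y * g'⁻¹) = 1 := Perm.mem_alternatingGroup.1 hx
    rw [map_mul, map_mul, map_inv, hsg'] at h3
    rw [Perm.mem_alternatingGroup]
    simpa using h3
  · rintro ⟨y, hy', rfl⟩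
    obtain ⟨hy, hya⟩ := Subgroup.mem_inf.1 hy'
    refine ⟨⟨y, hy, rfl⟩, ?_⟩
    rw [Perm.mem_alternatingGroup] at hya ⊢
    show Perm.sign (g' * y * g'⁻¹) = 1
    rw [map_mul, map_mul, map_inv, hsg', hya]; simp

end Cfsg.Agent.H38.NilUniq
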