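import Mathlib

set_option autoImplicit false

namespace Cfsg.Agent.H38.Parity

/-- `n.choose (2^a)` is odd when `2^a` is the top binary digit of `n` -/
theorem odd_choose_top (a n : ℕ) (h1 : 2 ^ a ≤ n) (h2 : n < 2 ^ (a + 1)) : Odd (n.choose (2 ^ a)) := by
  induction a generalizing n with
  | zero =>
    have : n = 1 := by simp at h1 h2; omega
    subst this
    simp
  | succ a ih =>
    have hmod := Choose.choose_modEq_choose_mod_mul_choose_div_nat (p := 2) (n := n) (k := 2 ^ (a + 1))
    have e1 : 2 ^ (a + 1) % 2 = 0 := by rw [pow_succ]; omega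
    have e2 : 2 ^ (a + 1) / 2 = 2 ^ a := by rw [pow_succ]; omega
    rw [e1, e2, Nat.choose_zero_right, one_mul] at hmod
    have h3 := ih (n / 2) (by rw [pow_succ] at h1; omega) (by rw [pow_succ] at h2; omega)
    rw [Nat.odd_iff] at h3 ⊢
    exact (show _ % 2 = _ % 2 from hmod).trans h3

theorem even_choose_pow (k i : ℕ) (h0 : i ≠ 0) (h1 : i ≠ 2 ^ k) : Even ((2 ^ k).choose i) := by
  rw [even_iff_two_dvd]
  exact Nat.Prime.dvd_choose_pow Nat.prime_two h0 h1

theorem even_choose_pow_add_one (k j : ℕ) (h2 : 2 ≤ j) (hj : j < 2 ^ k) : Even ((2 ^ k + 1).choose j) := by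
  obtain ⟨i, rfl⟩ : ∃ i, j = i + 1 := ⟨j - 1, by omega⟩
  rw [Nat.choose_succ_succ]
  exact (even_choose_pow k i (by omega) (by omega)).add (even_choose_pow k (i + 1) (by omega) (by omega))

theorem odd_choose_pow_sub_one (k i : ℕ) (hi : i < 2 ^ k) : Odd ((2 ^ k - 1).choose i) := by
  induction i with
  | zero => simp
  | succ i ih =>
    have h1 := ih (by omega)
    have h2 := even_choose_pow k (i + 1) (by omega) (by omega)
    have h3 : (2 ^ k).choose (i + 1) = (2 ^ k - 1).choose i + (2 ^ k - 1).choose (i + 1) := by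
      have : 2 ^ k = (2 ^ k - 1) + 1 := by omega
      conv_lhs => rw [this]
      rw [Nat.choose_succ_succ]
    rw [h3] at h2
    rw [Nat.even_add] at h2
    rw [← Nat.not_even_iff_odd] at h1 ⊢
    tauto

/-- number of halves of a set of size `2^(k+1)` is twice an odd number -/
theorem choose_half (k : ℕ) : ∃ c, Odd c ∧ (2 ^ (k + 1)).choose (2 ^ k) = 2 * c := by
  refine ⟨(2 ^ (k + 1) - 1).choose (2 ^ k - 1), odd_choose_pow_sub_one _ _ ?_, ?_⟩
  · have : 0 < 2 ^ k := by positivity
    rw [pow_succ]; omega
  · have hpos : 0 < 2 ^ k := by positivity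
    have e1 : 2 ^ (k + 1) = (2 ^ (k + 1) - 1) + 1 := by
      have : 0 < 2 ^ (k + 1) := by positivity
      omega
    have e2 : 2 ^ k = (2 ^ k - 1) + 1 := by omega
    have h := Nat.add_one_mul_choose_eq (2 ^ (k + 1) - 1) (2 ^ k - 1)
    rw [← e1, ← e2] at h
    have e3 : 2 ^ (k + 1) = 2 * 2 ^ k := by rw [pow_succ]; ring
    nth_rewrite 1 [e3] at h
    have h4 : 2 ^ k * (2 * (2 ^ (k + 1) - 1).choose (2 ^ k - 1)) = 2 ^ k * (2 ^ (k + 1)).choose (2 ^ k) := by
      linarith
    exact (Nat.eq_of_mul_eq_mul_left hpos h4).symm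

theorem odd_doubleFactorial (m : ℕ) : Odd (Nat.doubleFactorial (2 * m + 1)) := by
  induction m with
  | zero => simp
  | succ m ih =>
    rw [show 2 * (m + 1) + 1 = (2 * m + 1) + 2 by ring, Nat.doubleFactorial_add_two]
    exact (by exact ⟨m + 1, by ring⟩ : Odd (2 * m + 1 + 2)).mul ih

open Equiv in
/-- the number of fixed-point-free involutions on an even number of points is odd -/
theorem odd_card_fpf (α : Type*) [Fintype α] [DecidableEq α] (m : ℕ) (hm : Fintype.card α = 2 * (m + 1)) :
    Odd (Nat.card {t : Perm α // t * t = 1 ∧ ∀ x, t x ≠ x}) := by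
  obtain ⟨g, hg⟩ := (Equiv.Perm.exists_with_cycleType_iff (α := α) (m := Multiset.replicate (m + 1) 2)).2
    ⟨by rw [Multiset.sum_replicate, hm, smul_eq_mul, mul_comm], by
      intro a ha
      rw [Multiset.mem_replicate] at ha
      omega⟩
  have hiff : ∀ t : Perm α, (t * t = 1 ∧ ∀ x, t x ≠ x) ↔ IsConj g t := by
    intro t
    rw [Equiv.Perm.isConj_iff_cycleType_eq, hg]
    constructor
    · rintro ⟨h1, h2⟩
      have hall : ∀ i ∈ t.cycleType, i = 2 := by
        intro i hi
        have h3 : i ∣ 2 := (Equiv.Perm.dvd_of_mem_cycleType hi).trans (orderOf_dvd_of_pow_eq_one (by rw [pow_two]; exact h1))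
        have h4 := Equiv.Perm.two_le_of_mem_cycleType hi
        have h5 := Nat.le_of_dvd (by norm_num) h3
        omega
      have hrep := Multiset.eq_replicate_of_mem hall
      have hsum := t.sum_cycleType
      have hsupp : t.support = Finset.univ := by
        ext x; simp [h2 x]
      rw [hsupp, Finset.card_univ, hm, hrep, Multiset.sum_replicate, smul_eq_mul] at hsum
      rw [hrep]
      congr 1
      omega
    · intro h
      constructor
      · have : orderOf t ∣ 2 := by
          rw [← Equiv.Perm.lcm_cycleType, ← h]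
          rw [Multiset.lcm_dvd]
          intro b hb
          rw [Multiset.mem_replicate] at hb
          rw [hb.2]
        rw [← pow_two]
        exact orderOf_dvd_iff_pow_eq_one.1 this
      · intro x hx
        have hsum := t.sum_cycleType
        rw [← h, Multiset.sum_replicate, smul_eq_mul] at hsum
        have hsupp : t.support = Finset.univ := by
          rw [← Finset.card_eq_iff_eq_univ, ← hsum, hm]; ring
        have : x ∈ t.support := by rw [hsupp]; exact Finset.mem_univ x
        rw [Equiv.Perm.mem_support] at this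
        exact this hx
  have hcard := Equiv.Perm.card_isConj_mul_eq g
  have e1 : Nat.card {t : Perm α // t * t = 1 ∧ ∀ x, t x ≠ x} = Nat.card {h : Perm α | IsConj g h} := by
    apply Nat.card_congr
    exact Equiv.subtypeEquivRight hiff
  rw [e1]
  rw [hg] at hcard
  simp only [Multiset.sum_replicate, smul_eq_mul, Multiset.prod_replicate] at hcard
  rw [hm, show 2 * (m + 1) - (m + 1) * 2 = 0 by omega, Nat.factorial_zero, one_mul] at hcard
  have e2 : (Multiset.replicate (m + 1) 2).toFinset = {2} := by
    rw [Multiset.toFinset_replicate, if_neg (by omega)]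
  rw [e2, Finset.prod_singleton, Multiset.count_replicate_self] at hcard
  have e3 : (2 * (m + 1)).factorial = 2 ^ (m + 1) * (m + 1).factorial * Nat.doubleFactorial (2 * m + 1) := by
    rw [← Nat.doubleFactorial_two_mul, show 2 * (m + 1) = (2 * m + 1) + 1 by ring, Nat.factorial_eq_mul_doubleFactorial]
  rw [e3] at hcard
  have e4 : Nat.card {h : Perm α | IsConj g h} = Nat.doubleFactorial (2 * m + 1) := by
    have hpos : 0 < 2 ^ (m + 1) * (m + 1).factorial := by positivity
    apply Nat.eq_of_mul_eq_mul_left hpos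
    rw [← hcard]; ring
  rw [e4]
  exact odd_doubleFactorial m

end Cfsg.Agent.H38.Parity
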