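import Mathlib
import Cfsg.Agent.H38.Parity

set_option autoImplicit false

namespace Cfsg.Agent.H38.SylowMax

open MulAction Equiv
open scoped Pointwise

/-- The properties of the actions of `Perm (Fin n)` and `alternatingGroup (Fin n)` used below. -/
structure Nice (n : ℕ) (G : Type*) [Group G] [MulAction G (Fin n)] : Prop where
  trans : ∀ j, j + 2 ≤ n → IsMultiplyPretransitive G (Fin n) j
  real : ∀ σ ∈ alternatingGroup (Fin n), ∃ g : G, ∀ x, g • x = σ x
  coatom : ∀ s : Set (Fin n), s.Nonempty → sᶜ.Nonempty → n ≠ 2 * s.ncard → IsCoatom (stabilizer G s)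
  prim : ∀ (M : Subgroup G) (s : Set (Fin n)), IsPreprimitive M (Fin n) → stabilizer G s ≤ M → M = ⊤

variable {n : ℕ} {G : Type*} [Group G] [MulAction G (Fin n)]

theorem fixed_subset (R : Subgroup G) (hR : IsPGroup 2 R) (j : ℕ) (hodd : Odd (n.choose j)) :
    ∃ s : Set.powersetCard (Fin n) j, R ≤ stabilizer G ((s : Finset (Fin n)) : Set (Fin n)) := by
  have h := hR.nonempty_fixed_point_of_prime_not_dvd_card (Set.powersetCard (Fin n) j) (by
    rw [Set.powersetCard.card, Nat.card_fin, ← even_iff_two_dvd, Nat.not_even_iff_odd]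
    exact hodd)
  obtain ⟨s, hs⟩ := h
  refine ⟨s, fun r hr => ?_⟩
  have h1 : r • s = s := hs ⟨r, hr⟩
  have h2 : r • (s : Finset (Fin n)) = s := by
    rw [← Set.powersetCard.coe_smul, h1]
  rw [mem_stabilizer_iff, ← Finset.coe_smul_finset, h2]

theorem not_fixed_of_even [Finite G] (P : Sylow 2 G) (Y : Type*) [MulAction G Y] [IsPretransitive G Y]
    (hY : Even (Nat.card Y)) (y : Y) : ¬ (P : Subgroup G) ≤ stabilizer G y := by
  intro h
  have h1 := Subgroup.index_dvd_of_le h
  rw [index_stabilizer_of_transitive] at h1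
  exact P.not_dvd_index ((even_iff_two_dvd.1 hY).trans h1)

theorem no_fixed_subset (hG : Nice n G) [Finite G] (P : Sylow 2 G) (j : ℕ) (hj : j + 2 ≤ n) (he : Even (n.choose j))
    (s : Finset (Fin n)) (hs : s.card = j) : ¬ (P : Subgroup G) ≤ stabilizer G (s : Set (Fin n)) := by
  have := Set.powersetCard.isPretransitive_of_isMultiplyPretransitive (G := G) (α := Fin n) (n := j) (hG.trans j hj)
  have h := not_fixed_of_even P (Set.powersetCard (Fin n) j) (by
    rw [Set.powersetCard.card, Nat.card_fin]; exact he) ⟨s, hs⟩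
  rw [Set.powersetCard.stabilizer_coe] at h
  exact h

theorem le_of_unique [Finite G] (R M : Subgroup G) (hM : ∀ M' : Subgroup G, IsCoatom M' ∧ R ≤ M' → M' = M) (A : Subgroup G) (hRA : R ≤ A)
    (hA : A ≠ ⊤) : A ≤ M := by
  rcases eq_top_or_exists_le_coatom A with h | ⟨M', hM', hAM'⟩
  · exact absurd h hA
  · rw [← hM M' ⟨hM', hRA.trans hAM'⟩]
    exact hAM'

/-- two points can be moved to two given points -/
theorem move_two (hG : Nice n G) (hn : 4 ≤ n) (x y x' y' : Fin n) (h : x ≠ y) (h' : x' ≠ y') :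
    ∃ g : G, g • x = x' ∧ g • y = y' := by
  have h2 := hG.trans 2 (by omega)
  rw [is_two_pretransitive_iff] at h2
  exact h2 h h'

theorem move_three (hG : Nice n G) (hn : 5 ≤ n) (x y z x' y' z' : Fin n) (hxy : x ≠ y) (hxz : x ≠ z) (hyz : y ≠ z)
    (hxy' : x' ≠ y') (hxz' : x' ≠ z') (hyz' : y' ≠ z') :
    ∃ g : G, g • x = x' ∧ g • y = y' ∧ g • z = z' := by
  have h3 := hG.trans 3 (by omega)
  obtain ⟨g, hg⟩ := h3.exists_smul_eq ⟨![x, y, z], by
      intro i j hij
      fin_cases i <;> fin_cases j <;> simp_all⟩ ⟨![x', y', z'], by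
      intro i j hij
      fin_cases i <;> fin_cases j <;> simp_all⟩
  exact ⟨g, DFunLike.congr_fun hg 0, DFunLike.congr_fun hg 1, DFunLike.congr_fun hg 2⟩

/-- the action on fixed-point-free involutions -/
@[instance_reducible] def fpfAct (n : ℕ) (G : Type*) [Group G] [MulAction G (Fin n)] :
    MulAction G {t : Perm (Fin n) // t * t = 1 ∧ ∀ x, t x ≠ x} where
  smul g t := ⟨toPermHom G (Fin n) g * t.1 * (toPermHom G (Fin n) g)⁻¹, by
    constructor
    · calc toPermHom G (Fin n) g * t.1 * (toPermHom G (Fin n) g)⁻¹ * (toPermHom G (Fin n) g * t.1 * (toPermHom G (Fin n) g)⁻¹)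
          = toPermHom G (Fin n) g * (t.1 * t.1) * (toPermHom G (Fin n) g)⁻¹ := by group
        _ = 1 := by rw [t.2.1]; group
    · intro x hx
      apply t.2.2 ((toPermHom G (Fin n) g)⁻¹ x)
      rw [Perm.eq_inv_iff_eq]
      exact hx⟩
  one_smul t := by
    apply Subtype.ext
    change toPermHom G (Fin n) 1 * t.1 * (toPermHom G (Fin n) 1)⁻¹ = t.1
    rw [map_one, one_mul, inv_one, mul_one]
  mul_smul g h t := by
    apply Subtype.ext
    change toPermHom G (Fin n) (g * h) * t.1 * (toPermHom G (Fin n) (g * h))⁻¹ =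
      toPermHom G (Fin n) g * (toPermHom G (Fin n) h * t.1 * (toPermHom G (Fin n) h)⁻¹) * (toPermHom G (Fin n) g)⁻¹
    rw [map_mul]
    group

theorem fixed_fpf (R : Subgroup G) (hR : IsPGroup 2 R) (m : ℕ) (hm : n = 2 * (m + 1)) :
    ∃ t : Perm (Fin n), (t * t = 1 ∧ ∀ x, t x ≠ x) ∧ ∀ r ∈ R, ∀ x, r • t x = t (r • x) := by
  letI := fpfAct n R
  have h := hR.nonempty_fixed_point_of_prime_not_dvd_card {t : Perm (Fin n) // t * t = 1 ∧ ∀ x, t x ≠ x} (by
    rw [← even_iff_two_dvd, Nat.not_even_iff_odd]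
    exact Parity.odd_card_fpf (Fin n) m (by rw [Fintype.card_fin, hm]))
  obtain ⟨t, ht⟩ := h
  refine ⟨t.1, t.2, fun r hr x => ?_⟩
  have h1 := congrArg Subtype.val (ht ⟨r, hr⟩)
  have h2 : toPermHom R (Fin n) ⟨r, hr⟩ * t.1 * (toPermHom R (Fin n) ⟨r, hr⟩)⁻¹ = t.1 := h1
  rw [mul_inv_eq_iff_eq_mul] at h2
  exact DFunLike.congr_fun h2 x

/-- the centralizer of `t` -/
def cent (n : ℕ) (G : Type*) [Group G] [MulAction G (Fin n)] (t : Perm (Fin n)) : Subgroup G where
  carrier := {g | ∀ x, g • t x = t (g • x)}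
  mul_mem' := by
    intro g h hg hh x
    rw [mul_smul, hh, hg, mul_smul]
  one_mem' := by intro x; simp
  inv_mem' := by
    intro g hg x
    rw [inv_smul_eq_iff, hg, smul_inv_smul]

theorem mem_cent (t : Perm (Fin n)) (g : G) : g ∈ cent n G t ↔ ∀ x, g • t x = t (g • x) := Iff.rfl

theorem cent_ne_top (hG : Nice n G) (hn : 5 ≤ n) (t : Perm (Fin n)) (ht : ∀ x, t x ≠ x) : cent n G t ≠ ⊤ := by
  intro h
  let x : Fin n := ⟨0, by omega⟩
  obtain ⟨z, hz⟩ : ∃ z : Fin n, z ∉ ({x, t x} : Finset (Fin n)) := by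
    by_contra hcon
    push Not at hcon
    have h1 : ({x, t x} : Finset (Fin n)) = Finset.univ := Finset.eq_univ_of_forall hcon
    have h2 : ({x, t x} : Finset (Fin n)).card ≤ 2 := Finset.card_le_two
    rw [h1, Finset.card_univ, Fintype.card_fin] at h2
    omega
  simp only [Finset.mem_insert, Finset.mem_singleton, not_or] at hz
  obtain ⟨g, hg1, hg2⟩ := move_two hG (by omega) x (t x) x z (ht x).symm (Ne.symm hz.1)
  have : g ∈ cent n G t := by rw [h]; trivial
  rw [mem_cent] at this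
  have h3 := this x
  rw [hg1, hg2] at h3
  exact hz.2 h3

/-- the centralizer of a fixed-point-free involution fixes `x` and `t x` and moves `y` to `z` -/
theorem cent_move_fix (hG : Nice n G) (t : Perm (Fin n)) (ht : t * t = 1) (ht' : ∀ x, t x ≠ x) (y z : Fin n)
    (hyz : y ≠ z) (htyz : t y ≠ z) :
    ∃ g ∈ cent n G t, g • y = z ∧ ∀ w, w ≠ y → w ≠ z → w ≠ t y → w ≠ t z → g • w = w := by
  have htt : ∀ x, t (t x) = x := fun x => DFunLike.congr_fun ht x
  have htyz' : t z ≠ y := by
    intro h; apply htyz; rw [← h, htt]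
  have htne : t y ≠ t z := fun h => hyz (t.injective h)
  let σ : Perm (Fin n) := Equiv.swap y z * Equiv.swap (t y) (t z)
  have hσ : σ ∈ alternatingGroup (Fin n) := by
    rw [Perm.mem_alternatingGroup, map_mul, Perm.sign_swap hyz, Perm.sign_swap htne]
    norm_num
  obtain ⟨g, hg⟩ := hG.real σ hσ
  have hσt : ∀ w, σ (t w) = t (σ w) := by
    intro w
    have h1 : t * σ * t⁻¹ = σ := by
      calc t * σ * t⁻¹ = (t * Equiv.swap y z * t⁻¹) * (t * Equiv.swap (t y) (t z) * t⁻¹) := by
            simp only [σ]; group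
        _ = Equiv.swap (t y) (t z) * Equiv.swap (t (t y)) (t (t z)) := by
            rw [← Equiv.swap_apply_apply, ← Equiv.swap_apply_apply]
        _ = Equiv.swap (t y) (t z) * Equiv.swap y z := by rw [htt, htt]
        _ = σ := by
            simp only [σ]
            have hd : Perm.Disjoint (Equiv.swap (t y) (t z)) (Equiv.swap y z) := by
              rw [Perm.disjoint_iff_disjoint_support, Perm.support_swap htne, Perm.support_swap hyz]
              simp only [Finset.disjoint_insert_left, Finset.mem_insert, Finset.mem_singleton, not_or,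
                Finset.disjoint_singleton_left]
              exact ⟨⟨ht' y, htyz⟩, ⟨htyz', ht' z⟩⟩
            exact hd.commute.eq
    rw [mul_inv_eq_iff_eq_mul] at h1
    exact (DFunLike.congr_fun h1 w).symm
  refine ⟨g, ?_, ?_, ?_⟩
  · rw [mem_cent]
    intro w
    rw [hg, hg, hσt]
  · rw [hg]
    simp only [σ, Perm.mul_apply]
    rw [Equiv.swap_apply_of_ne_of_ne (Ne.symm (ht' y)) (Ne.symm htyz'), Equiv.swap_apply_left]
  · intro w h1 h2 h3 h4
    rw [hg]
    simp only [σ, Perm.mul_apply]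
    rw [Equiv.swap_apply_of_ne_of_ne h3 h4, Equiv.swap_apply_of_ne_of_ne h1 h2]

theorem exists_notMem_finset (s : Finset (Fin n)) (hs : s.card < n) : ∃ x, x ∉ s := by
  by_contra h
  push Not at h
  have : s = Finset.univ := Finset.eq_univ_of_forall h
  rw [this, Finset.card_univ, Fintype.card_fin] at hs
  exact lt_irrefl _ hs

/-- the centralizer of a fixed-point-free involution is transitive -/
theorem cent_transitive (hG : Nice n G) (hn : 5 ≤ n) (t : Perm (Fin n)) (ht : t * t = 1) (ht' : ∀ x, t x ≠ x) (y z : Fin n) :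
    ∃ g ∈ cent n G t, g • y = z := by
  have htt : ∀ x, t (t x) = x := fun x => DFunLike.congr_fun ht x
  by_cases hyz : y = z
  · exact ⟨1, one_mem _, by rw [one_smul, hyz]⟩
  · by_cases h2 : t y = z
    · obtain ⟨w, hw⟩ := exists_notMem_finset ({y, z} : Finset (Fin n)) (lt_of_le_of_lt Finset.card_le_two (by omega))
      simp only [Finset.mem_insert, Finset.mem_singleton, not_or] at hw
      obtain ⟨g1, hg1, hg1', -⟩ := cent_move_fix hG t ht ht' y w (Ne.symm hw.1) (by
        intro h; apply hw.2; rw [← h, h2])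
      obtain ⟨g2, hg2, hg2', -⟩ := cent_move_fix hG t ht ht' w z hw.2 (by
        intro h; apply hw.1; rw [← h2] at h; exact t.injective h)
      exact ⟨g2 * g1, mul_mem hg2 hg1, by rw [mul_smul, hg1', hg2']⟩
    · obtain ⟨g, hg, hg', -⟩ := cent_move_fix hG t ht ht' y z hyz h2
      exact ⟨g, hg, hg'⟩

theorem smul_compl' {n : ℕ} {G : Type*} [Group G] [MulAction G (Fin n)] (g : G) (s : Finset (Fin n)) : g • sᶜ = (g • s)ᶜ := by
  ext x
  rw [Finset.mem_compl, ← Finset.inv_smul_mem_iff, ← Finset.inv_smul_mem_iff, Finset.mem_compl]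

/-- the pairs of complementary halves -/
def halves (n k : ℕ) (G : Type*) [Group G] [MulAction G (Fin n)] : SubMulAction G (Finset (Finset (Fin n))) where
  carrier := {P | ∃ s : Finset (Fin n), s.card = 2 ^ k ∧ P = {s, sᶜ}}
  smul_mem' := by
    rintro g P ⟨s, hs, rfl⟩
    refine ⟨g • s, by rw [Finset.card_smul_finset, hs], ?_⟩
    rw [Finset.smul_finset_insert, Finset.smul_finset_singleton, smul_compl']

theorem odd_card_halves (k : ℕ) (hn : n = 2 ^ (k + 1)) (G : Type*) [Group G] [MulAction G (Fin n)] :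
    Odd (Nat.card (halves n k G)) := by
  classical
  obtain ⟨c, hc, hc'⟩ := Parity.choose_half k
  let f : Finset (Fin n) → Finset (Finset (Fin n)) := fun s => {s, sᶜ}
  have hset : ((halves n k G : SubMulAction G (Finset (Finset (Fin n)))) : Set (Finset (Finset (Fin n)))) =
      ↑((Finset.powersetCard (2 ^ k) (Finset.univ : Finset (Fin n))).image f) := by
    ext P
    simp only [SetLike.mem_coe, Finset.coe_image, Set.mem_image, Finset.mem_powersetCard]
    constructor
    · rintro ⟨s, hs, rfl⟩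
      exact ⟨s, ⟨Finset.subset_univ _, hs⟩, rfl⟩
    · rintro ⟨s, ⟨-, hs⟩, rfl⟩
      exact ⟨s, hs, rfl⟩
  have hpos : 0 < 2 ^ k := by positivity
  have hcompl : ∀ s : Finset (Fin n), s.card = 2 ^ k → sᶜ.card = 2 ^ k := by
    intro s hs
    rw [Finset.card_compl, Fintype.card_fin, hs, hn, pow_succ]
    omega
  have hsne : ∀ s : Finset (Fin n), s.card = 2 ^ k → s ≠ sᶜ := by
    intro s hs h
    obtain ⟨x, hx⟩ := Finset.card_pos.1 (by rw [hs]; exact hpos : 0 < s.card)
    have hx' := hx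
    rw [h, Finset.mem_compl] at hx'
    exact hx' hx
  have hsum := Finset.card_eq_sum_card_image f (Finset.powersetCard (2 ^ k) (Finset.univ : Finset (Fin n)))
  have hfib : ∀ P ∈ (Finset.powersetCard (2 ^ k) (Finset.univ : Finset (Fin n))).image f,
      ((Finset.powersetCard (2 ^ k) (Finset.univ : Finset (Fin n))).filter (fun s => f s = P)).card = 2 := by
    intro P hP
    obtain ⟨s, hs, rfl⟩ := Finset.mem_image.1 hP
    have hs' : s.card = 2 ^ k := (Finset.mem_powersetCard.1 hs).2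
    have : (Finset.powersetCard (2 ^ k) (Finset.univ : Finset (Fin n))).filter (fun u => f u = f s) = {s, sᶜ} := by
      ext u
      simp only [Finset.mem_filter, Finset.mem_powersetCard, Finset.mem_insert, Finset.mem_singleton]
      constructor
      · rintro ⟨-, h⟩
        have : u ∈ f s := by rw [← h]; simp [f]
        simpa [f] using this
      · rintro (rfl | rfl)
        · exact ⟨⟨Finset.subset_univ _, hs'⟩, rfl⟩
        · refine ⟨⟨Finset.subset_univ _, hcompl _ hs'⟩, ?_⟩
          simp only [f, compl_compl]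
          exact Finset.pair_comm _ _
    rw [this, Finset.card_pair (hsne s hs')]
  rw [Finset.sum_congr rfl hfib, Finset.sum_const, smul_eq_mul, Finset.card_powersetCard, Finset.card_univ,
    Fintype.card_fin] at hsum
  have hc'' : n.choose (2 ^ k) = 2 * c := by rw [hn]; exact hc'
  rw [hc''] at hsum
  have hcard : Nat.card (halves n k G) = ((Finset.powersetCard (2 ^ k) (Finset.univ : Finset (Fin n))).image f).card := by
    change Nat.card ((halves n k G : SubMulAction G (Finset (Finset (Fin n)))) : Set (Finset (Finset (Fin n)))) = _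
    rw [hset, Nat.card_eq_card_toFinset, Finset.toFinset_coe]
  rw [hcard]
  have : ((Finset.powersetCard (2 ^ k) (Finset.univ : Finset (Fin n))).image f).card = c := by omega
  rw [this]
  exact hc

theorem fixed_half (R : Subgroup G) (hR : IsPGroup 2 R) (k : ℕ) (hn : n = 2 ^ (k + 1)) :
    ∃ s : Finset (Fin n), s.card = 2 ^ k ∧ ∀ r ∈ R, r • s = s ∨ r • s = sᶜ := by
  classical
  have h := hR.nonempty_fixed_point_of_prime_not_dvd_card (halves n k R) (by
    rw [← even_iff_two_dvd, Nat.not_even_iff_odd]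
    exact odd_card_halves k hn R)
  obtain ⟨⟨P, ⟨s, hs, hP⟩⟩, hfix⟩ := h
  refine ⟨s, hs, fun r hr => ?_⟩
  have h1 := congrArg Subtype.val (hfix ⟨r, hr⟩)
  have h2 : (⟨r, hr⟩ : R) • P = P := h1
  have h3 : r • s ∈ (⟨r, hr⟩ : R) • P := by
    apply Finset.smul_mem_smul_finset
    rw [hP]; simp
  rw [h2, hP] at h3
  simpa using h3

/-- the stabilizer of a pair of complementary halves -/
def stabHalves (n : ℕ) (G : Type*) [Group G] [MulAction G (Fin n)] (s : Finset (Fin n)) : Subgroup G where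
  carrier := {g | g • s = s ∨ g • s = sᶜ}
  mul_mem' := by
    intro g h hg hh
    simp only [Set.mem_ofPred_eq] at hg hh ⊢
    rcases hh with hh | hh
    · rw [mul_smul, hh]; exact hg
    · rw [mul_smul, hh, smul_compl']
      rcases hg with hg | hg
      · right; rw [hg]
      · left; rw [hg, compl_compl]
  one_mem' := by left; simp
  inv_mem' := by
    intro g hg
    simp only [Set.mem_ofPred_eq] at hg ⊢
    rcases hg with hg | hg
    · left; rw [inv_smul_eq_iff, hg]
    · right; rw [inv_smul_eq_iff, smul_compl', hg, compl_compl]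

theorem stabHalves_ne_top (hG : Nice n G) (hn : 4 ≤ n) (s : Finset (Fin n)) (hs : 2 ≤ s.card) (hs' : s ≠ Finset.univ) :
    stabHalves n G s ≠ ⊤ := by
  intro h
  obtain ⟨x, hx, y, hy, hxy⟩ := Finset.one_lt_card.1 hs
  obtain ⟨z, hz⟩ : ∃ z, z ∉ s := by
    by_contra hcon
    push Not at hcon
    exact hs' (Finset.eq_univ_of_forall hcon)
  obtain ⟨g, hg1, hg2⟩ := move_two hG hn x y x z hxy (by rintro rfl; exact hz hx)
  have hg : g ∈ stabHalves n G s := by rw [h]; trivial
  have hx' : x ∈ g • s := by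
    rw [← hg1]; exact Finset.smul_mem_smul_finset hx
  have hz' : z ∈ g • s := by
    rw [← hg2]; exact Finset.smul_mem_smul_finset hy
  rcases hg with hg | hg
  · rw [hg] at hz'
    exact hz hz'
  · rw [hg, Finset.mem_compl] at hx'
    exact hx' hx

/-- three-cycles inside `s` or inside its complement stabilize `s` -/
theorem stab_threeCycle (hG : Nice n G) (s u : Finset (Fin n)) (hu : u = s ∨ u = sᶜ) (v z w : Fin n) (hv : v ∈ u)
    (hz : z ∈ u) (hw : w ∈ u) (hvz : v ≠ z) (hvw : v ≠ w) (hzw : z ≠ w) :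
    ∃ g ∈ stabilizer G (s : Set (Fin n)), g • v = z ∧ ∀ x, x ≠ v → x ≠ z → x ≠ w → g • x = x := by
  obtain ⟨g, hg⟩ := hG.real (Equiv.swap v z * Equiv.swap z w) (by
    rw [Perm.mem_alternatingGroup, map_mul, Perm.sign_swap hvz, Perm.sign_swap hzw]
    norm_num)
  have h1 : g • v = z := by
    rw [hg, Perm.mul_apply, Equiv.swap_apply_of_ne_of_ne hvz hvw, Equiv.swap_apply_left]
  have h2 : g • z = w := by
    rw [hg, Perm.mul_apply, Equiv.swap_apply_left, Equiv.swap_apply_of_ne_of_ne (Ne.symm hvw) (Ne.symm hzw)]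
  have h3 : g • w = v := by
    rw [hg, Perm.mul_apply, Equiv.swap_apply_right, Equiv.swap_apply_right]
  have h4 : ∀ x, x ≠ v → x ≠ z → x ≠ w → g • x = x := by
    intro x hx1 hx2 hx3
    rw [hg, Perm.mul_apply, Equiv.swap_apply_of_ne_of_ne hx2 hx3, Equiv.swap_apply_of_ne_of_ne hx1 hx2]
  have h5 : g • u = u := by
    apply Finset.eq_of_subset_of_card_le
    · intro y hy
      obtain ⟨x, hx, rfl⟩ := Finset.mem_smul_finset.1 hy
      by_cases e1 : x = v
      · rw [e1, h1]; exact hz
      by_cases e2 : x = z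
      · rw [e2, h2]; exact hw
      by_cases e3 : x = w
      · rw [e3, h3]; exact hv
      rw [h4 x e1 e2 e3]; exact hx
    · rw [Finset.card_smul_finset]
  refine ⟨g, ?_, h1, h4⟩
  rw [mem_stabilizer_iff, ← Finset.coe_smul_finset]
  congr 1
  rcases hu with rfl | rfl
  · exact h5
  · rw [smul_compl', compl_inj_iff] at h5
    exact h5

theorem not_unique_pow (hG : Nice n G) [Finite G] (R : Subgroup G) (hR : IsPGroup 2 R) (k : ℕ) (hk : 2 ≤ k)
    (hn : n = 2 ^ (k + 1)) : ¬ ∃! M : Subgroup G, IsCoatom M ∧ R ≤ M := by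
  classical
  rintro ⟨M, ⟨hMc, hRM⟩, huniq⟩
  have hk4 : 4 ≤ 2 ^ k := by
    calc 4 = 2 ^ 2 := by norm_num
      _ ≤ 2 ^ k := Nat.pow_le_pow_right (by norm_num) hk
  have hn8 : n = 2 * 2 ^ k := by rw [hn, pow_succ]; ring
  obtain ⟨s, hs, hRs⟩ := fixed_half R hR k hn
  obtain ⟨t, ⟨ht1, ht2⟩, hRt⟩ := fixed_fpf (n := n) R hR (2 ^ k - 1) (by omega)
  have htt : ∀ x, t (t x) = x := fun x => DFunLike.congr_fun ht1 x
  have hsc : sᶜ.card = 2 ^ k := by
    rw [Finset.card_compl, Fintype.card_fin, hs]; omega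
  have hA : stabHalves n G s ≤ M := by
    apply le_of_unique R M huniq (stabHalves n G s) (fun r hr => hRs r hr)
    apply stabHalves_ne_top hG (by omega) s (by omega)
    intro h
    rw [h, Finset.card_univ, Fintype.card_fin] at hs
    omega
  have hB : cent n G t ≤ M := by
    apply le_of_unique R M huniq (cent n G t) (fun r hr => hRt r hr)
    exact cent_ne_top hG (by omega) t ht2
  have hS : stabilizer G (s : Set (Fin n)) ≤ M := by
    refine le_trans ?_ hA
    intro g hg
    left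
    rw [mem_stabilizer_iff, ← Finset.coe_smul_finset, Finset.coe_inj] at hg
    exact hg
  apply hMc.1
  apply hG.prim M (s : Set (Fin n)) _ hS
  -- primitivity
  have htr : IsPretransitive M (Fin n) := by
    constructor
    intro x y
    obtain ⟨g, hg, hg'⟩ := cent_transitive hG (by omega) t ht1 ht2 x y
    exact ⟨⟨g, hB hg⟩, hg'⟩
  refine @IsPreprimitive.mk M (Fin n) _ htr ?_
  intro B hBlock
  have hmv : ∀ g ∈ M, ∀ x ∈ B, g • x ∈ B → ∀ y ∈ B, g • y ∈ B := by
    intro g hg x hx hgx y hy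
    have h1 : (⟨g, hg⟩ : M) • B = B := hBlock.smul_eq_of_mem hx hgx
    rw [← h1]
    exact Set.smul_mem_smul_set hy
  rw [IsTrivialBlock, or_iff_not_imp_left]
  intro hsub
  rw [Set.not_subsingleton_iff] at hsub
  -- first step
  have step1 : ∀ x ∈ B, ∀ y ∈ B, x ≠ y → y ≠ t x → ∀ z, z ≠ x → z ≠ t x → z ∈ B := by
    intro x hx y hy hxy hytx z hzx hztx
    have key : ∀ y z : Fin n, y ∈ B → y ≠ x → y ≠ t x → z ≠ x → z ≠ t x → t y ≠ z → z ∈ B := by
      intro y z hy hyx hytx hzx hztx htyz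
      by_cases hyz : y = z
      · rw [← hyz]; exact hy
      obtain ⟨g, hg, hg1, hg2⟩ := cent_move_fix hG t ht1 ht2 y z hyz htyz
      have hgx : g • x = x := by
        apply hg2 x hyx.symm hzx.symm
        · intro h; apply hytx; rw [h, htt]
        · intro h; apply hztx; rw [h, htt]
      rw [← hg1]
      exact hmv g (hB hg) x hx (by rw [hgx]; exact hx) y hy
    by_cases h : t y = z
    · have h4 : ({x, t x, y, z} : Finset (Fin n)).card ≤ 4 := Finset.card_le_four
      obtain ⟨w, hw⟩ := exists_notMem_finset ({x, t x, y, z} : Finset (Fin n)) (by omega)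
      simp only [Finset.mem_insert, Finset.mem_singleton, not_or] at hw
      obtain ⟨hw1, hw2, hw3, hw4⟩ := hw
      have hwB := key y w hy hxy.symm hytx hw1 hw2 (by rw [h]; exact Ne.symm hw4)
      exact key w z hwB hw1 hw2 hzx hztx (by
        intro h'
        rw [← h] at h'
        exact hw3 (t.injective h'))
    · exact key y z hy hxy.symm hytx hzx hztx h
  have step2 : ∀ x ∈ B, ∀ y ∈ B, x ≠ y → y ≠ t x → B = Set.univ := by
    intro x hx y hy hxy hytx
    have h1 := step1 x hx y hy hxy hytx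
    have htx : t x ∈ B := by
      have h4 : ({x, t x, y, t y} : Finset (Fin n)).card ≤ 4 := Finset.card_le_four
      obtain ⟨w, hw⟩ := exists_notMem_finset ({x, t x, y, t y} : Finset (Fin n)) (by omega)
      simp only [Finset.mem_insert, Finset.mem_singleton, not_or] at hw
      obtain ⟨hw1, hw2, hw3, hw4⟩ := hw
      apply step1 y hy w (h1 w hw1 hw2) (Ne.symm hw3) hw4 (t x) (Ne.symm hytx)
      intro h
      exact hxy (t.injective h)
    rw [Set.eq_univ_iff_forall]
    intro z
    by_cases e1 : z = x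
    · rw [e1]; exact hx
    by_cases e2 : z = t x
    · rw [e2]; exact htx
    exact h1 z e1 e2
  obtain ⟨x, hx, y, hy, hxy⟩ := hsub
  by_cases hytx : y = t x
  · -- move `t x` by a three-cycle
    obtain ⟨u, hu, hyu⟩ : ∃ u : Finset (Fin n), (u = s ∨ u = sᶜ) ∧ y ∈ u := by
      by_cases h : y ∈ s
      · exact ⟨s, Or.inl rfl, h⟩
      · exact ⟨sᶜ, Or.inr rfl, Finset.mem_compl.2 h⟩
    have hucard : 4 ≤ u.card := by
      rcases hu with rfl | rfl
      · omega
      · omega
    obtain ⟨z, hz⟩ : ∃ z, z ∈ u \ {x, y} := by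
      apply Finset.card_pos.1
      have := Finset.le_card_sdiff ({x, y} : Finset (Fin n)) u
      have h2 : ({x, y} : Finset (Fin n)).card ≤ 2 := Finset.card_le_two
      omega
    obtain ⟨w, hw⟩ : ∃ w, w ∈ u \ {x, y, z} := by
      apply Finset.card_pos.1
      have := Finset.le_card_sdiff ({x, y, z} : Finset (Fin n)) u
      have h2 : ({x, y, z} : Finset (Fin n)).card ≤ 3 := Finset.card_le_three
      omega
    simp only [Finset.mem_sdiff, Finset.mem_insert, Finset.mem_singleton, not_or] at hz hw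
    obtain ⟨hzu, hzx, hzy⟩ := hz
    obtain ⟨hwu, hwx, hwy, hwz⟩ := hw
    obtain ⟨g, hg, hg1, hg2⟩ := stab_threeCycle hG s u hu y z w hyu hzu hwu (Ne.symm hzy) (Ne.symm hwy) (Ne.symm hwz)
    have hgx := hg2 x hxy (Ne.symm hzx) (Ne.symm hwx)
    have hzB : z ∈ B := by
      rw [← hg1]
      exact hmv g (hS hg) x hx (by rw [hgx]; exact hx) y hy
    exact step2 x hx z hzB (Ne.symm hzx) (by rw [← hytx]; exact hzy)
  · exact step2 x hx y hy hxy hytx

theorem not_unique_even (hG : Nice n G) [Finite G] (R : Subgroup G) (hR : IsPGroup 2 R) (hn : 5 ≤ n) (heven : Even n)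
    (hpow : ∀ k, n ≠ 2 ^ k) : ¬ ∃! M : Subgroup G, IsCoatom M ∧ R ≤ M := by
  classical
  rintro ⟨M, ⟨hMc, hRM⟩, huniq⟩
  obtain ⟨m, hm⟩ := heven
  obtain ⟨t, ⟨ht1, ht2⟩, hRt⟩ := fixed_fpf (n := n) R hR (m - 1) (by omega)
  set a := Nat.log 2 n with ha
  have h1 : 2 ^ a ≤ n := Nat.pow_log_le_self 2 (by omega)
  have h2 : n < 2 ^ (a + 1) := Nat.lt_pow_succ_log_self (by norm_num) n
  obtain ⟨s, hRs⟩ := fixed_subset R hR (2 ^ a) (Parity.odd_choose_top a n h1 h2)
  have hcard : (s : Finset (Fin n)).card = 2 ^ a := s.2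
  have hlt : 2 ^ a < n := lt_of_le_of_ne h1 (Ne.symm (hpow a))
  have hpos : 0 < 2 ^ a := by positivity
  obtain ⟨x, hx⟩ := Finset.card_pos.1 (by rw [hcard]; exact hpos : 0 < (s : Finset (Fin n)).card)
  obtain ⟨y, hy⟩ := exists_notMem_finset (s : Finset (Fin n)) (by rw [hcard]; exact hlt)
  have hco : IsCoatom (stabilizer G ((s : Finset (Fin n)) : Set (Fin n))) := by
    apply hG.coatom
    · exact ⟨x, hx⟩
    · exact ⟨y, hy⟩
    · rw [Set.ncard_coe_finset, hcard]
      rw [pow_succ] at h2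
      intro h
      exact hpow (a + 1) (by rw [pow_succ]; omega)
  have hM : stabilizer G ((s : Finset (Fin n)) : Set (Fin n)) = M := huniq _ ⟨hco, hRs⟩
  have hB : cent n G t ≤ M := by
    apply le_of_unique R M huniq (cent n G t) (fun r hr => hRt r hr)
    exact cent_ne_top hG (by omega) t ht2
  obtain ⟨g, hg, hgxy⟩ := cent_transitive hG hn t ht1 ht2 x y
  have hgM := hB hg
  rw [← hM, mem_stabilizer_iff] at hgM
  apply hy
  have : g • x ∈ g • ((s : Finset (Fin n)) : Set (Fin n)) := Set.smul_mem_smul_set hx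
  rw [hgM, hgxy] at this
  exact this

theorem not_unique_odd (hG : Nice n G) [Finite G] (R : Subgroup G) (hR : IsPGroup 2 R) (hn : 5 ≤ n) (hodd : Odd n)
    (hpow : ∀ k, 2 ≤ k → n ≠ 2 ^ k + 1) : ¬ ∃! M : Subgroup G, IsCoatom M ∧ R ≤ M := by
  classical
  rintro ⟨M, ⟨hMc, hRM⟩, huniq⟩
  set a := Nat.log 2 n with ha
  have h1 : 2 ^ a ≤ n := Nat.pow_log_le_self 2 (by omega)
  have h2 : n < 2 ^ (a + 1) := Nat.lt_pow_succ_log_self (by norm_num) n
  have ha2 : 2 ≤ a := by
    by_contra h
    have : a + 1 ≤ 2 := by omega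
    have h3 : 2 ^ (a + 1) ≤ 2 ^ 2 := Nat.pow_le_pow_right (by norm_num) this
    omega
  have h4 : 4 ≤ 2 ^ a := by
    calc 4 = 2 ^ 2 := by norm_num
      _ ≤ 2 ^ a := Nat.pow_le_pow_right (by norm_num) ha2
  obtain ⟨s, hRs⟩ := fixed_subset R hR (2 ^ a) (Parity.odd_choose_top a n h1 h2)
  obtain ⟨s1, hRs1⟩ := fixed_subset R hR 1 (by rw [Nat.choose_one_right]; exact hodd)
  have hcard : (s : Finset (Fin n)).card = 2 ^ a := s.2
  have hcard1 : (s1 : Finset (Fin n)).card = 1 := s1.2
  obtain ⟨x, hx⟩ := Finset.card_eq_one.1 hcard1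
  have heven : Even (2 ^ a) := by
    rw [Nat.even_pow]; exact ⟨even_two, by omega⟩
  have hlt : 2 ^ a + 1 < n := by
    have e1 : n ≠ 2 ^ a := by
      intro h; rw [← h] at heven
      exact (Nat.not_even_iff_odd.2 hodd) heven
    have e2 := hpow a ha2
    omega
  have hco : IsCoatom (stabilizer G ((s : Finset (Fin n)) : Set (Fin n))) := by
    apply hG.coatom
    · obtain ⟨y, hy⟩ := Finset.card_pos.1 (by rw [hcard]; omega : 0 < (s : Finset (Fin n)).card)
      exact ⟨y, hy⟩
    · obtain ⟨y, hy⟩ := exists_notMem_finset (s : Finset (Fin n)) (by rw [hcard]; omega)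
      exact ⟨y, hy⟩
    · intro h
      exact (Nat.not_even_iff_odd.2 hodd) ⟨_, by rw [h]; ring⟩
  have hco1 : IsCoatom (stabilizer G ((s1 : Finset (Fin n)) : Set (Fin n))) := by
    apply hG.coatom
    · rw [hx]; exact ⟨x, by simp⟩
    · obtain ⟨y, hy⟩ := exists_notMem_finset (s1 : Finset (Fin n)) (by rw [hcard1]; omega)
      exact ⟨y, hy⟩
    · intro h
      exact (Nat.not_even_iff_odd.2 hodd) ⟨_, by rw [h]; ring⟩
  have hM : stabilizer G ((s : Finset (Fin n)) : Set (Fin n)) = M := huniq _ ⟨hco, hRs⟩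
  have hM1 : stabilizer G ((s1 : Finset (Fin n)) : Set (Fin n)) = M := huniq _ ⟨hco1, hRs1⟩
  obtain ⟨y, hy⟩ : ∃ y, y ∈ (s : Finset (Fin n)) \ {x} := by
    apply Finset.card_pos.1
    have := Finset.le_card_sdiff ({x} : Finset (Fin n)) s
    rw [Finset.card_singleton] at this
    omega
  obtain ⟨z, hz⟩ := exists_notMem_finset (insert x (s : Finset (Fin n))) (lt_of_le_of_lt (Finset.card_insert_le _ _) (by omega))
  simp only [Finset.mem_sdiff, Finset.mem_insert, Finset.mem_singleton, not_or] at hy hz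
  obtain ⟨g, hg1, hg2⟩ := move_two hG (by omega) x y x z (Ne.symm hy.2) (Ne.symm hz.1)
  have hgM : g ∈ M := by
    rw [← hM1, mem_stabilizer_iff, ← Finset.coe_smul_finset, hx, Finset.smul_finset_singleton, hg1]
  rw [← hM, mem_stabilizer_iff] at hgM
  apply hz.2
  have : g • y ∈ g • ((s : Finset (Fin n)) : Set (Fin n)) := Set.smul_mem_smul_set hy.1
  rw [hgM, hg2] at this
  exact this

theorem not_unique (hG : Nice n G) [Finite G] (R : Subgroup G) (hR : IsPGroup 2 R) (hn : 5 ≤ n)
    (hpow : ∀ k, 2 ≤ k → n ≠ 2 ^ k + 1) : ¬ ∃! M : Subgroup G, IsCoatom M ∧ R ≤ M := by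
  rcases Nat.even_or_odd n with he | ho
  · by_cases h : ∃ k, n = 2 ^ k
    · obtain ⟨k, hk⟩ := h
      have hk3 : 3 ≤ k := by
        by_contra hcon
        have : k ≤ 2 := by omega
        have h3 : 2 ^ k ≤ 2 ^ 2 := Nat.pow_le_pow_right (by norm_num) this
        omega
      obtain ⟨j, rfl⟩ : ∃ j, k = j + 1 := ⟨k - 1, by omega⟩
      exact not_unique_pow hG R hR j (by omega) hk
    · push Not at h
      exact not_unique_even hG R hR hn he h
  · exact not_unique_odd hG R hR hn ho hpow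

end Cfsg.Agent.H38.SylowMax
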